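import Cfsg.Agent.Lib.OD.Fix

/-!
Character sums over singular vectors; the Welch bound.
-/

set_option autoImplicit false

namespace Cfsg.Agent.OD

open Module Cfsg.Agent.Forms Cfsg.Agent.Forms.Form Cfsg.Agent.MI Cfsg.Agent.Deg Finset
open scoped InnerProductSpace ComplexConjugate

theorem welch {W : Type*} [NormedAddCommGroup W] [InnerProductSpace ℂ W] [FiniteDimensional ℂ W]
    {ι : Type*} (s : Finset ι) (z : ι → W) (h : ∀ i ∈ s, ‖z i‖ = 1) :
    (s.card : ℝ) ^ 2 ≤ finrank ℂ W * ∑ i ∈ s, ∑ j ∈ s, ‖⟪z i, z j⟫_ℂ‖ ^ 2 := by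
  let b := stdOrthonormalBasis ℂ W
  let M : Fin (finrank ℂ W) → Fin (finrank ℂ W) → ℂ := fun a c =>
    ∑ i ∈ s, ⟪b a, z i⟫_ℂ * ⟪z i, b c⟫_ℂ
  have h1 : ∑ i ∈ s, ∑ j ∈ s, ‖⟪z i, z j⟫_ℂ‖ ^ 2 = ∑ a, ∑ c, ‖M a c‖ ^ 2 := by
    have : ∑ i ∈ s, ∑ j ∈ s, ⟪z i, z j⟫_ℂ * conj ⟪z i, z j⟫_ℂ = ∑ a, ∑ c, M a c * conj (M a c) := by
      simp only [M, map_sum, map_mul, inner_conj_symm, sum_mul_sum]
      simp only [← b.sum_inner_mul_inner (z _) (z _), sum_mul_sum]
      simp only [sum_comm (s := s) (t := univ)]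
      refine sum_congr rfl fun a _ => sum_congr rfl fun c _ => ?_
      rw [sum_comm]
      exact sum_congr rfl fun i _ => sum_congr rfl fun j _ => by ring
    simp only [Complex.mul_conj'] at this
    exact_mod_cast this
  have h2 : (s.card : ℝ) = ∑ a, ‖M a a‖ := by
    have : ∀ a, M a a = ((∑ i ∈ s, ‖⟪b a, z i⟫_ℂ‖ ^ 2 : ℝ) : ℂ) := fun a => by
      push_cast
      exact sum_congr rfl fun i _ => by rw [← inner_conj_symm (z i), Complex.mul_conj']
    simp only [this, fun a => Complex.norm_of_nonneg (sum_nonneg (s := s) fun i _ =>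
      sq_nonneg ‖⟪b a, z i⟫_ℂ‖)]
    rw [sum_comm, card_eq_sum_ones, Nat.cast_sum]
    exact sum_congr rfl fun i hi => by rw [b.sum_sq_norm_inner_right, h i hi]; simp
  rw [h1, h2]
  refine (sq_sum_le_card_mul_sum_sq.trans_eq (by simp)).trans (mul_le_mul_of_nonneg_left
    (sum_le_sum fun a _ => single_le_sum (f := fun c => ‖M a c‖ ^ 2) (fun _ _ => sq_nonneg _)
      (mem_univ a)) (Nat.cast_nonneg _))

variable {F : Type*} [Field F] {V : Type*} [AddCommGroup V] [Module F V]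
  {f : Form (Param.orth F) V} {ψ : AddChar F ℂ} {x y v : V} [Fintype F] [Fintype V] {k n : ℕ}

variable (f) in
open Classical in
/-- singular vectors orthogonal to a vector -/
noncomputable def Pp (y : V) : Finset V := univ.filter fun v => f.B v y = 0 ∧ f.Q v = 0

variable (f) in
open Classical in
/-- non-singular vectors orthogonal to a vector -/
noncomputable def Ns (y : V) : Finset V := univ.filter fun v => f.B v y = 0 ∧ f.Q v ≠ 0

variable (f) in
open Classical in
/-- non-zero singular vectors -/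
noncomputable def Sg : Finset V := univ.filter fun v => f.Q v = 0 ∧ v ≠ 0

theorem mem_Pp : v ∈ Pp f y ↔ f.B v y = 0 ∧ f.Q v = 0 := by simp [Pp]
theorem mem_Ns : v ∈ Ns f y ↔ f.B v y = 0 ∧ f.Q v ≠ 0 := by simp [Ns]
theorem mem_Sg : v ∈ Sg f ↔ f.Q v = 0 ∧ v ≠ 0 := by simp [Sg]

variable (f k n) in
/-- numerical data -/
structure Num : Prop where
  nd : f.Nondeg
  hk : finrank F V = k + 2
  hn : Nat.card {v // f.Q v = 0} = n + (Fintype.card F - 1) * Fintype.card F ^ k

open Classical in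
theorem card_perp (hf : f.Nondeg) (hk : finrank F V = k + 2) (hy : f.Q y = 0) (hy0 : y ≠ 0) (c : F) :
    (univ.filter fun v => f.B v y = 0 ∧ f.Q v = c).card + (Fintype.card F - 1) * Fintype.card F ^ k =
      Nat.card {v // f.Q v = c} := by
  rw [← card_perp_Q hf hy hy0 hk, Nat.card_eq_fintype_card, ← Set.ncard_coe_finset]; simp

open Classical in
theorem sum_perp_split (hy : f.Q y = 0) (hy0 : y ≠ 0) (φ : V → ℂ) :
    ∑ v ∈ Pp f y, φ v = ∑ t : F, φ (t • y) + ∑ v ∈ univ.filter (Pr f y), φ v := by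
  rw [← sum_filter_add_sum_filter_not _ (· ∈ F ∙ y), ← sum_image (s := univ) (g := fun t : F => t • y)
    fun _ _ _ _ h => smul_left_injective F hy0 h]
  congr 2 <;> ext v <;> simp only [mem_filter, mem_Pp, mem_image, mem_univ, true_and,
    Submodule.mem_span_singleton]
  · refine ⟨fun h => h.2, fun h => ⟨?_, h⟩⟩
    obtain ⟨t, rfl⟩ := h
    simp [orth_Q_smul, hy, f.B_self_of_Q hy]
  · exact ⟨fun h => ⟨hy0, by simpa only [Submodule.mem_span_singleton] using h.2, hy, h.1.2, h.1.1⟩,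
      fun h => ⟨⟨h.yx, h.qy⟩, by simpa only [Submodule.mem_span_singleton] using h.y0⟩⟩

theorem sum_orth_split (φ : V → ℂ) :
    ∑ v : f.orth (F ∙ y), φ v = ∑ v ∈ Pp f y, φ v + ∑ v ∈ Ns f y, φ v := by
  classical
  rw [← sum_subtype (univ.filter fun v => f.B v y = 0) (by simp [mem_orth_singleton]),
    ← sum_filter_add_sum_filter_not _ (f.Q · = 0), filter_filter, filter_filter, Pp, Ns]

open Classical in
theorem sum_psi_orth (hf : f.Nondeg) (hψ : ψ ≠ 1) (μ : V) :
    ∑ v : f.orth (F ∙ y), ψ (f.B v μ) =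
      if μ ∈ F ∙ y then (Fintype.card (f.orth (F ∙ y)) : ℂ) else 0 := by
  split_ifs with h
  · simp [fun v : f.orth (F ∙ y) => v.2 μ h]
  · refine (AddChar.sum_eq_zero_iff_ne_zero (ψ := ch f ψ y μ)).2 fun e => ?_
    obtain ⟨v, h1, h2⟩ := hf.exists_orth_eq_one h
    obtain ⟨t, ht⟩ := AddChar.ne_one_iff.1 hψ
    rw [orth_symm] at h2
    exact ht (by simpa [ch_apply, h2] using
      DFunLike.congr_fun e ⟨t • v, Submodule.smul_mem _ _ (mem_orth'.2 h1)⟩)

variable (f ψ) in
/-- Fourier transform of the singular cone -/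
noncomputable def Tc (y v : V) : ℂ := ∑ μ ∈ Pp f y, ψ (f.B v μ)

namespace Num

variable (N : Num f k n) (hy : f.Q y = 0) (hy0 : y ≠ 0)
include N hy hy0

theorem card_Pp : (Pp f y).card = n := by
  have := (card_perp N.nd N.hk hy hy0 0).trans N.hn
  simpa [Pp] using this

theorem card_orth : Fintype.card (f.orth (F ∙ y)) = Fintype.card F * Fintype.card F ^ k := by
  rw [card_eq_pow_finrank (K := F), ← pow_succ']
  have := N.nd.finrank_orth_singleton hy0
  rw [N.hk] at this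
  congr 1; omega

theorem sum_Pp (φ : V → ℂ) {c : ℂ} (h : ∀ v, Pr f y v → φ v = c) :
    ∑ v ∈ Pp f y, φ v = ∑ t : F, φ (t • y) + (n - Fintype.card F) * c := by
  classical
  have h1 := sum_perp_split hy hy0 (fun _ => 1)
  simp only [sum_const, N.card_Pp hy hy0, card_univ, nsmul_eq_mul, mul_one] at h1
  rw [sum_perp_split hy hy0, sum_congr rfl fun v hv => h v (mem_filter.1 hv).2, sum_const, h1]
  simp

theorem card_Ns : ((Ns f y).card : ℂ) = Fintype.card F * Fintype.card F ^ k - n := by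
  have := sum_orth_split (f := f) (y := y) (fun _ => 1)
  simp only [sum_const, N.card_Pp hy hy0, card_univ, nsmul_eq_mul, mul_one, N.card_orth hy hy0,
    Nat.cast_mul, Nat.cast_pow] at this
  rw [this]; ring

open Classical in
theorem sum_cone (φ : V → ℂ) (g : F → ℂ) (h : ∀ v, f.Q v = 0 → f.B v y ≠ 0 → φ v = g (f.B v y)) :
    ∑ v ∈ univ.filter (f.Q · = 0), φ v =
      ∑ v ∈ Pp f y, φ v + Fintype.card F ^ k * ∑ t ∈ univ.erase 0, g t := by
  rw [← sum_filter_add_sum_filter_not _ (f.B · y = 0), filter_filter, filter_filter]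
  congr 1
  · exact sum_congr (by ext; simp [mem_Pp, and_comm]) fun _ _ => rfl
  rw [sum_congr rfl fun v hv => h v (mem_filter.1 hv).2.1 (mem_filter.1 hv).2.2,
    ← sum_fiberwise_of_maps_to' (t := univ.erase 0) (by simp), mul_sum]
  refine sum_congr rfl fun t ht => ?_
  have ht0 := ne_of_mem_erase ht
  have h1 := card_hyp_orth N.nd hy hy0 N.hk
  rw [Nat.card_eq_fintype_card] at h1
  rw [sum_const, nsmul_eq_mul, ← Nat.cast_pow, ← h1, ← Set.ncard_coe_finset]
  congr 2
  refine Set.ncard_congr (fun v _ => t⁻¹ • v) (fun v hv => ?_) (fun v w _ _ e => ?_) fun e he => ?_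
  · simp only [coe_filter, mem_filter, mem_univ, true_and, Set.mem_ofPred_eq] at hv
    exact ⟨hy, by rw [orth_Q_smul, hv.1.1, mul_zero], by
      rw [orth_B_smul_right, orth_symm, hv.2, inv_mul_cancel₀ ht0]⟩
  · exact smul_right_injective V (inv_ne_zero ht0) e
  · exact ⟨t • e, by simp [orth_Q_smul, he.Qe, he.Beu, ht0], inv_smul_smul₀ ht0 e⟩

theorem sum_Sg (φ : V → ℂ) {c₀ c₁ c₂ : ℂ} (h0 : ∀ a : F, a ≠ 0 → φ (a • y) = c₀)
    (h1 : ∀ v, Pr f y v → φ v = c₁) (h2 : ∀ v, f.Q v = 0 → f.B v y ≠ 0 → φ v = c₂) :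
    ∑ v ∈ Sg f, φ v = (Fintype.card F - 1) * c₀ + (n - Fintype.card F) * c₁ +
      (Fintype.card F - 1) * Fintype.card F ^ k * c₂ := by
  classical
  have h3 := N.sum_cone hy hy0 φ (fun _ => c₂) h2
  rw [N.sum_Pp hy hy0 φ h1, ← add_sum_erase _ _ (mem_univ (0 : F)),
    sum_congr rfl fun a ha => h0 a (ne_of_mem_erase ha),
    ← add_sum_erase (a := 0) _ _ (by simp [f.Q_zero]), zero_smul] at h3
  rw [show Sg f = (univ.filter (f.Q · = 0)).erase 0 by ext; simp [mem_Sg, and_comm]]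
  simp only [sum_const, card_erase_of_mem (mem_univ _), card_univ, nsmul_eq_mul,
    Nat.cast_pred Fintype.card_pos] at h3
  linear_combination h3

theorem Tc_self (t : F) : Tc f ψ y (t • y) = n := by
  rw [Tc, sum_congr rfl (g := fun _ => 1) fun μ hμ => by
    simp [f.B_eq_zero_symm (mem_Pp.1 hμ).1]]
  simp [N.card_Pp hy hy0]

variable (hψ : ψ ≠ 1)
include hψ

open Classical in
theorem sum_cone_psi : ∑ μ ∈ univ.filter (f.Q · = 0), ψ (f.B y μ) = n - Fintype.card F ^ k := by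
  have h1 := AddChar.sum_eq_zero_iff_ne_zero.2 hψ
  rw [← add_sum_erase _ _ (mem_univ 0), AddChar.map_zero_eq_one] at h1
  rw [N.sum_cone hy hy0 _ ψ fun v _ _ => by rw [orth_symm], eq_neg_of_add_eq_zero_right h1]
  have := N.Tc_self (ψ := ψ) hy hy0 1
  rw [one_smul] at this
  rw [← this, Tc]; ring

omit hy hy0 in
theorem Tc_pr (h : Pr f y v) : Tc f ψ y v = n - Fintype.card F ^ k := by
  classical
  have h1 := sum_congr (s₁ := univ) rfl fun (t : F) _ =>
    N.sum_cone_psi (h.comb one_ne_zero t).qy (h.comb one_ne_zero t).symm.x0 hψ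
  rw [sum_comm] at h1
  simp only [one_smul, B_add_left, B_smul_left, AddChar.map_add_eq_mul, ← mul_sum,
    AddChar.sum_mulShift _ (AddChar.IsPrimitive.of_ne_one hψ), sum_const, card_univ,
    nsmul_eq_mul] at h1
  refine mul_left_cancel₀ (Nat.cast_ne_zero (R := ℂ).2 (Fintype.card_ne_zero (α := F))) ?_
  rw [← h1, Tc, Pp, mul_sum, sum_filter, sum_filter]
  refine sum_congr rfl fun μ _ => ?_
  by_cases h2 : f.Q μ = 0 <;> by_cases h3 : f.B μ y = 0 <;> simp [h2, h3, orth_symm f μ y, mul_comm]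

open Classical in
theorem sum_Pp_ite {μ : V} (h : μ ∈ Pp f y) (c : ℂ) :
    ∑ μ' ∈ Pp f y, (if μ' - μ ∈ F ∙ y then c else 0) = Fintype.card F * c := by
  rw [← sum_filter, sum_const, nsmul_eq_mul, ← card_univ, ← card_image_of_injective univ
    (f := fun t : F => μ + t • y) fun _ _ e => smul_left_injective F hy0 (add_left_cancel e)]
  congr 3
  ext v
  simp only [mem_filter, mem_image, mem_univ, true_and, Submodule.mem_span_singleton,
    eq_sub_iff_add_eq', and_iff_right_iff_imp]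
  rintro ⟨t, rfl⟩
  simp [mem_Pp, orth_Q_add, orth_Q_smul, hy, mem_Pp.1 h, f.B_self_of_Q hy]

theorem sum_Tc : ∑ v ∈ Ns f y, Tc f ψ y v = Fintype.card F ^ 2 * Fintype.card F ^ k -
    Fintype.card F * n - (n - Fintype.card F) * (n - Fintype.card F ^ k) := by
  classical
  have h1 := sum_orth_split (f := f) (y := y) (Tc f ψ y)
  rw [N.sum_Pp hy hy0 _ fun v => N.Tc_pr hψ] at h1
  simp only [N.Tc_self hy hy0, sum_const, card_univ, nsmul_eq_mul] at h1
  simp only [Tc] at h1
  rw [sum_comm] at h1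
  have h2 := N.sum_Pp_ite hy hy0 hψ (μ := 0) (by simp [mem_Pp, f.Q_zero])
  simp only [sub_zero] at h2
  simp only [sum_psi_orth N.nd hψ, h2, N.card_orth hy hy0] at h1
  push_cast at h1
  simp only [Tc]
  linear_combination -h1

theorem sum_Tc_sq : ∑ v ∈ Ns f y, Tc f ψ y v * conj (Tc f ψ y v) =
    Fintype.card F ^ 2 * Fintype.card F ^ k * n - Fintype.card F * n ^ 2 -
      (n - Fintype.card F) * (n - Fintype.card F ^ k) ^ 2 := by
  classical
  have h1 := sum_orth_split (f := f) (y := y) fun v => Tc f ψ y v * conj (Tc f ψ y v)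
  rw [N.sum_Pp hy hy0 _ (c := (n - Fintype.card F ^ k) ^ 2) fun v hv => by
    simp [N.Tc_pr hψ hv, sq]] at h1
  have h2 : ∑ v : f.orth (F ∙ y), Tc f ψ y v * conj (Tc f ψ y v) =
      Fintype.card F ^ 2 * Fintype.card F ^ k * n := by
    simp only [Tc, map_sum, sum_mul_sum, ← AddChar.map_neg_eq_conj, ← AddChar.map_add_eq_mul,
      ← sub_eq_add_neg, ← B_sub_right]
    rw [sum_comm]
    simp only [sum_comm (s := univ) (t := Pp f y), sum_psi_orth N.nd hψ]
    rw [sum_comm, sum_congr rfl fun μ hμ => N.sum_Pp_ite hy hy0 hψ hμ _]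
    simp only [sum_const, N.card_Pp hy hy0, N.card_orth hy hy0, nsmul_eq_mul]
    push_cast; ring
  simp only [N.Tc_self hy hy0, sum_const, card_univ, nsmul_eq_mul, map_natCast] at h1
  linear_combination h2 - h1

end Num

end Cfsg.Agent.OD
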