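import Cfsg.Agent.Lib.OD.Wt

/-!
Unitary representations of `Ω` with one-dimensional singular weight spaces: a vector fixed by the
stabiliser of a singular vector.
-/

set_option autoImplicit false

namespace Cfsg.Agent.OD

open Module Cfsg.Agent.Forms Cfsg.Agent.Forms.Form Cfsg.Agent.MI Cfsg.Agent.Deg
open scoped InnerProductSpace ComplexConjugate

variable {F : Type*} [Field F] {V : Type*} [AddCommGroup V] [Module F V]
  {f : Form (Param.orth F) V} {W : Type*} [NormedAddCommGroup W] [InnerProductSpace ℂ W]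
  {R : f.Isom → End ℂ W} {ψ : AddChar F ℂ} {x x' y z v μ μ' : V} {w w' : W} {g k : f.Isom}

theorem re_symm (a b : W) : (⟪a, b⟫_ℂ).re = (⟪b, a⟫_ℂ).re := inner_re_symm (𝕜 := ℂ) a b

theorem re_self (a : W) : (⟪a, a⟫_ℂ).re = ‖a‖ ^ 2 := inner_self_eq_norm_sq (𝕜 := ℂ) a

theorem tri_ineq (a b c : W) : 0 ≤ ‖a‖ ^ 2 + ‖b‖ ^ 2 + ‖c‖ ^ 2 +
    2 * ((⟪a, b⟫_ℂ).re + (⟪a, c⟫_ℂ).re + (⟪b, c⟫_ℂ).re) := by
  have := re_self (a + b + c) ▸ sq_nonneg ‖a + b + c‖
  simp only [inner_add_left, inner_add_right, Complex.add_re, re_self, re_symm b a, re_symm c a,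
    re_symm c b] at this
  linarith

theorem quad_ineq (a b c d : W) : 0 ≤ ‖a‖ ^ 2 + ‖b‖ ^ 2 + ‖c‖ ^ 2 + ‖d‖ ^ 2 +
    2 * ((⟪a, b⟫_ℂ).re + (⟪c, d⟫_ℂ).re - (⟪a, c⟫_ℂ).re - (⟪a, d⟫_ℂ).re - (⟪b, c⟫_ℂ).re -
      (⟪b, d⟫_ℂ).re) := by
  have := re_self (a + b - c - d) ▸ sq_nonneg ‖a + b - c - d‖
  simp only [inner_add_left, inner_add_right, inner_sub_left, inner_sub_right, Complex.add_re,
    Complex.sub_re, re_self, re_symm b a, re_symm c a, re_symm c b, re_symm d a, re_symm d b,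
    re_symm d c] at this
  linarith

variable (f) in
/-- a basis of a totally singular line -/
structure Pr (x y : V) : Prop where
  x0 : x ≠ 0
  y0 : y ∉ F ∙ x
  qx : f.Q x = 0
  qy : f.Q y = 0
  yx : f.B y x = 0

theorem Pr.symm (h : Pr f x y) : Pr f y x :=
  ⟨by rintro rfl; exact h.y0 (zero_mem _), not_mem_span_symm h.x0 h.y0, h.qy, h.qx,
    f.B_eq_zero_symm h.yx⟩

theorem Pr.map (h : Pr f x y) (g : f.Isom) : Pr f (g.1 x) (g.1 y) :=
  ⟨by simpa using h.x0, fun e => by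
    obtain ⟨t, ht⟩ := Submodule.mem_span_singleton.1 e
    exact h.y0 (Submodule.mem_span_singleton.2 ⟨t, g.1.injective (by rw [map_smul, ht])⟩),
    by rw [Isom.map_Q, h.qx], by rw [Isom.map_Q, h.qy], by rw [Isom.map_B, h.yx]⟩

theorem Pr.comb (h : Pr f y x) {a : F} (ha : a ≠ 0) (s : F) : Pr f y (a • x + s • y) :=
  ⟨h.x0, fun e => h.y0 ((Submodule.smul_mem_iff _ ha).1 ((Submodule.add_mem_iff_left _
    (Submodule.smul_mem _ _ (Submodule.mem_span_singleton_self y))).1 e)), h.qx,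
    by simp [orth_Q_add, orth_Q_smul, h.qx, h.qy, h.yx], by simp [h.yx, f.B_self_of_Q h.qx]⟩

theorem Pr.smul (h : Pr f x y) {a : F} (ha : a ≠ 0) : Pr f (a • x) (a • y) := by
  simpa using (by simpa using h.comb ha 0 : Pr f x (a • y)).symm.comb ha 0 |>.symm

theorem Tri.pr (h : Tri f y x x') : Pr f y x := ⟨h.x0, h.y0, h.qx, h.qy, h.yx⟩

theorem Tri.swap (h : Tri f y x x') : Tri f y x' x :=
  ⟨h.x0, fun e => h.z0 (Submodule.span_mono (by simp) e), fun e => by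
    obtain ⟨a, b, rfl⟩ := Submodule.mem_span_pair.1 e
    have hb : b ≠ 0 := by
      rintro rfl
      exact h.y0 (Submodule.mem_span_singleton.2 ⟨a, by simp⟩)
    exact h.z0 (Submodule.mem_span_pair.2 ⟨-a / b, b⁻¹, by match_scalars <;> field_simp; ring⟩),
    h.qx, h.qz, h.qy, h.zx, h.yx, f.B_eq_zero_symm h.zy⟩

theorem Tri.comb (h : Tri f y x x') {a : F} (ha : a ≠ 0) (s : F) : Tri f y x (a • x' + s • y) :=
  ⟨h.x0, h.y0, fun e => h.z0 ((Submodule.smul_mem_iff _ ha).1 ((Submodule.add_mem_iff_left _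
    (Submodule.smul_mem _ _ (Submodule.subset_span (by simp)))).1 e)), h.qx, h.qy,
    (h.swap.pr.comb ha s).qy, h.yx, (h.swap.pr.comb ha s).yx,
    by simp [h.zy, f.B_eq_zero_symm h.yx]⟩

variable [Fintype F] [Fintype V]

theorem Pr.om (hf : f.Nondeg) (h6 : 6 ≤ finrank F V) {y' : V} (h : Pr f x y) (h' : Pr f x' y') :
    ∃ g ∈ commutator f.Isom, g.1 x = x' ∧ g.1 y = y' :=
  om_two hf h6 h.x0 h.y0 h'.x0 h'.y0 (by rw [h.qx, h'.qx]) (by rw [h.qy, h'.qy])
    (by rw [f.B_eq_zero_symm h.yx, f.B_eq_zero_symm h'.yx])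

variable (R ψ) in
/-- an equivariant family of weight vectors -/
structure Fam (ω : V → V → W) : Prop where
  H : UR f R ψ
  h7 : 7 ≤ finrank F V
  m1 : ∀ {x y}, Pr f x y → finrank ℂ (Wt R ψ x y) = 1
  mem : ∀ {x y}, Pr f x y → ω x y ∈ Wt R ψ x y
  nrm : ∀ {x y}, Pr f x y → ‖ω x y‖ = 1
  map : ∀ {g x y}, g ∈ commutator f.Isom → Pr f x y → R g (ω x y) = ω (g.1 x) (g.1 y)

theorem UR.exists_fam [FiniteDimensional ℂ W] (H : UR f R ψ) (h7 : 7 ≤ finrank F V)
    (hq : 4 ≤ Nat.card F ∨ 9 ≤ finrank F V ∨ ∀ M, f.TotSing M → finrank F M ≤ 3)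
    (hn : ∀ z μ, f.Q z = 0 → f.Q μ ≠ 0 → ∀ w ∈ Wt R ψ z μ, w = 0) (h : Pr f x y)
    (hm : finrank ℂ (Wt R ψ x y) = 1) : ∃ ω, Fam R ψ ω := by
  classical
  obtain ⟨w, hw, h0⟩ : ∃ w ∈ Wt R ψ x y, ‖w‖ = 1 := by
    have : Nontrivial (Wt R ψ x y) := (finrank_pos_iff (R := ℂ)).1 (hm ▸ one_pos)
    obtain ⟨⟨w, hw⟩, h0⟩ := exists_ne (0 : Wt R ψ x y)
    exact ⟨_, Submodule.smul_mem _ _ hw, norm_smul_inv_norm (𝕜 := ℂ) (by simpa using h0)⟩
  choose g g1 g2 g3 using fun x' y' (h' : Pr f x' y') => h.om H.nd (by omega) h'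
  refine ⟨fun x' y' => if h' : Pr f x' y' then R (g x' y' h') w else 0, H, h7, fun h' => ?_,
    fun h' => ?_, fun h' => ?_, fun {k x' y'} hk h' => ?_⟩
  · rw [← g2 _ _ h', ← hm, ← H.finrank_Wt_map (g1 _ _ h') x y, g3, g2]
  · rw [dif_pos h']; simpa only [g2, g3] using H.Wt_map (g1 _ _ h') hw
  · rw [dif_pos h', H.norm (g1 _ _ h'), h0]
  · have := mul_mem (inv_mem (g1 _ _ (h'.map k))) (mul_mem hk (g1 _ _ h'))
    rw [dif_pos h', dif_pos (h'.map k), ← H.app hk (g1 _ _ h'),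
      ← mul_inv_cancel_left (g _ _ (h'.map k)) (k * _), H.app (g1 _ _ _) this,
      H.fix_of_one h7 hq hn h.qx h.qy h.yx hm hw h.x0 h.y0 this]
    · rw [Isom.mul_apply, Isom.mul_apply, g2]
      exact (congrArg _ (g2 _ _ (h'.map k)).symm).trans (Isom.inv_apply _ _)
    · rw [Isom.mul_apply, Isom.mul_apply, g3]
      exact (congrArg _ (g3 _ _ (h'.map k)).symm).trans (Isom.inv_apply _ _)

/-- sum of the weight vectors along a line -/
noncomputable def Sl (ω : V → V → W) (y x : V) : W :=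
  open Classical in ∑ p : Fˣ × F, ω ((p.1 : F) • x + p.2 • y) y

theorem Sl_comb (ω : V → V → W) {a : F} (ha : a ≠ 0) (s : F) :
    Sl (F := F) ω y (a • x + s • y) = Sl (F := F) ω y x := by
  classical
  refine Fintype.sum_bijective (fun p : Fˣ × F => (p.1 * Units.mk0 a ha, p.1 * s + p.2))
    (Finite.injective_iff_bijective.1 fun p p' h => ?_) _ _ fun p => ?_
  · obtain ⟨h1, h2⟩ := Prod.ext_iff.1 h
    have h3 : p.1 = p'.1 := mul_right_cancel h1
    exact Prod.ext h3 (by simpa [h3] using h2)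
  · congr 1; simp only [Units.val_mul, Units.val_mk0]; module

namespace Fam

variable {ω : V → V → W} (A : Fam R ψ ω) [FiniteDimensional ℂ W]
include A

theorem ne (h : Pr f x y) : ω x y ≠ 0 := fun e => by simpa [e] using A.nrm h

theorem inner_self (h : Pr f x y) : ⟪ω x y, ω x y⟫_ℂ = 1 := by
  rw [inner_self_eq_norm_sq_to_K, A.nrm h]; simp

theorem eq_smul (h : Pr f x y) (hw : w ∈ Wt R ψ x y) : w = ⟪ω x y, w⟫_ℂ • ω x y := by
  obtain ⟨c, rfl⟩ := A.H.scal (A.m1 h) (A.mem h) (A.ne h) hw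
  rw [inner_smul_right, A.inner_self h, mul_one]

theorem norm_Pw (h : Pr f x y) (w : W) : ‖Pw R ψ x y w‖ = ‖⟪ω x y, w⟫_ℂ‖ := by
  rw [A.eq_smul h (A.H.Pw_mem h.qx y w), A.H.inner_Pw h.qx (A.mem h), norm_smul, A.nrm h, mul_one]

theorem norm_tri (h : Tri f y x x') : (Fintype.card F : ℝ) * ‖⟪ω x' y, ω x y⟫_ℂ‖ = 1 := by
  classical
  have H := A.H
  have p := h.pr.symm
  have p' := h.swap.pr.symm
  have li := li_triple h.x0 h.y0 h.z0
  obtain ⟨v, v1, v2⟩ := H.nd.exists_orth_eq_one (S := Submodule.span F {x', x}) (x := y)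
    (by simpa [Set.image_insert_eq] using li.notMem_span_image (s := {0, 2}) (x := 1) (by simp))
  have v3 := f.B_eq_zero_symm (v1 x' (Submodule.subset_span (by simp)))
  have v4 := f.B_eq_zero_symm (v1 x (Submodule.subset_span (by simp)))
  have s := @B_eq_zero_symm _ _ _ _ _ _ f
  have a1 : ∀ t : F, ∑ μ, ψ (t * f.B v μ) * (‖Pw R ψ x' μ (ω x y)‖ : ℂ) ^ 2 =
      if t = 0 then (Fintype.card F : ℂ) else 0 := fun t => by
    have h1 : f.B (t • v) x' = 0 := by simp [v3]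
    simp only [← B_smul_left]
    rw [← H.coef h.qz p'.x0 h1]
    split_ifs with ht
    · rw [ht, zero_smul, Ev_zero, H.one, End.one_apply, A.inner_self p, mul_one]
    · have := H.Wt_map (H.E x' (t • v)) (A.mem p)
      rw [Ev_fix (s h.zy) (by simp [s v4]), Ev_orth h.qz h1 (s h.zx)] at this
      rw [H.inner_Wt (fun e => ?_) (A.mem p) this, mul_zero]
      rw [sub_sub_cancel, orth_B_smul_right, v2, mul_one, Submodule.smul_mem_iff _ ht] at e
      exact h.z0 (Submodule.span_mono (by simp) e)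
  have a2 : ∑ μ, (if f.B v μ = 1 then (‖Pw R ψ x' μ (ω x y)‖ : ℂ) ^ 2 else 0) = 1 := by
    have h1 := Finset.sum_congr (s₁ := Finset.univ) rfl fun t _ => congrArg (ψ (-t) * ·) (a1 t)
    simp only [Finset.mul_sum, ← mul_assoc, ← AddChar.map_add_eq_mul, mul_ite, mul_zero,
      Finset.sum_ite_eq', Finset.mem_univ, if_true, neg_zero, AddChar.map_zero_eq_one,
      one_mul] at h1
    rw [Finset.sum_comm] at h1
    simp only [← Finset.sum_mul, show ∀ t b : F, -t + t * b = t * (b - 1) from fun _ _ => by ring,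
      AddChar.sum_mulShift _ (AddChar.IsPrimitive.of_ne_one H.ψ1), sub_eq_zero] at h1
    refine mul_left_cancel₀ (Nat.cast_ne_zero (R := ℂ).2 (Fintype.card_ne_zero (α := F))) ?_
    rw [mul_one, Finset.mul_sum]
    nth_rw 2 [← h1]
    exact Finset.sum_congr rfl fun μ _ => by split_ifs <;> simp
  rw [← Fintype.sum_of_injective (fun p : F × F => y + p.1 • x + p.2 • x') (fun p p' e => by
    have := Fintype.linearIndependent_iff.1 li ![p.2 - p'.2, 0, p.1 - p'.1] (by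
      simp only [Fin.sum_univ_three, Matrix.cons_val]
      linear_combination (norm := module) e)
    exact Prod.ext (sub_eq_zero.1 (this 2)) (sub_eq_zero.1 (this 0)))
    (fun _ => (‖⟪ω x' y, ω x y⟫_ℂ‖ : ℂ) ^ 2)] at a2
  · simp only [Finset.sum_const, Finset.card_univ, Fintype.card_prod, nsmul_eq_mul] at a2
    refine (pow_eq_one_iff_of_nonneg (by positivity) two_ne_zero).1 ?_
    rw [mul_pow, sq]
    exact_mod_cast a2
  · intro μ hμ
    split_ifs with h1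
    swap
    · rfl
    rw [show Pw R ψ x' μ (ω x y) = 0 from by_contra fun h2 => hμ ?_]
    · simp
    obtain ⟨a, b, c, rfl⟩ := Submodule.mem_span_triple.1 (H.mem_of_Pw h.qz
      (S := Submodule.span F {y, x, x'}) (Submodule.subset_span (by simp)) (fun u hu => by
        obtain ⟨u1, u2, -⟩ := mem_orth_triple.1 hu
        rw [A.map (H.E _ _) p, Ev_fix (s h.zy) (s u2), Ev_fix (s h.zx) (s u1)]) h2)
    obtain rfl : a = 1 := by simpa [v3, v4, orth_symm f y v, v2] using h1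
    exact ⟨(b, c), by simp⟩
  · rintro ⟨b, c⟩
    have h1 : f.B ((-b) • v) x = 0 := by simp [v4]
    have := H.Pw_map (H.E x ((-b) • v)) x' y (ω x y)
    rw [Ev_fix h.zy (by simp [s v3]), Ev_orth h.qy h1 (s h.yx), mem_Wt.1 (A.mem p) _ h1,
      map_smul, orth_B_smul_right, v2, mul_one, neg_smul b x, sub_neg_eq_add] at this
    have := congrArg (‖·‖) this
    simp only [norm_smul, AddChar.norm_apply, one_mul, H.norm (H.E _ _), A.norm_Pw p'] at this
    rw [if_pos (by simp [v3, v4, orth_symm f y v, v2]), Pw_add, this]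

theorem inner_tri {y₁ x₁ x₁' : V} (h : Tri f y x x') (h₁ : Tri f y₁ x₁ x₁') :
    ⟪ω x' y, ω x y⟫_ℂ = ⟪ω x₁' y₁, ω x₁ y₁⟫_ℂ := by
  obtain ⟨g, hg, s, hs, g1, g2, g3⟩ := om_tri A.H.nd A.h7 h h₁
  have p := h₁.pr.symm
  obtain ⟨k, hk, k1, k2⟩ := p.om A.H.nd (by have := A.h7; omega) h₁.swap.pr.symm
  obtain ⟨c, hc⟩ := A.H.scal (A.m1 p) (A.mem p) (A.ne p) (w' := ω (s • x₁) (s • y₁))
    (by rw [← Wt_smul p.qx hs]; exact A.mem (p.smul hs))
  have h1 := A.map hk (p.smul hs)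
  have h2 := A.nrm (p.smul hs)
  rw [hc, map_smul, A.map hk p, map_smul, map_smul, k1, k2] at h1
  rw [hc, norm_smul, A.nrm p, mul_one] at h2
  rw [← A.H.inner hg, A.map hg h.pr.symm, A.map hg h.swap.pr.symm, g1, g2, g3, ← h1, hc,
    inner_smul_left, inner_smul_right, ← mul_assoc, Complex.conj_mul', h2]
  simp

theorem map_Sl (hg : g ∈ commutator f.Isom) (h : Pr f y x) :
    R g (Sl (F := F) ω y x) = Sl (F := F) ω (g.1 y) (g.1 x) := by
  simp only [Sl, map_sum]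
  exact Finset.sum_congr rfl fun p _ => by
    rw [A.map hg (h.comb p.1.ne_zero _).symm, map_add, map_smul, map_smul]

theorem inner_Sl_tri (h : Tri f y x x') : ⟪Sl (F := F) ω y x', Sl (F := F) ω y x⟫_ℂ =
    ((Fintype.card F - 1) * Fintype.card F) ^ 2 * ⟪ω x' y, ω x y⟫_ℂ := by
  classical
  simp only [Sl, sum_inner, inner_sum]
  rw [Finset.sum_congr rfl fun p _ => Finset.sum_congr rfl fun p' _ =>
    A.inner_tri ((h.comb p'.1.ne_zero p'.2).swap.comb p.1.ne_zero p.2).swap h]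
  simp [Fintype.card_units, Nat.cast_pred Fintype.card_pos, sq, mul_assoc]

theorem norm_Sl (h : Pr f y x) (h' : Pr f y x') : ‖Sl (F := F) ω y x'‖ = ‖Sl (F := F) ω y x‖ := by
  obtain ⟨g, hg, g1, g2⟩ := h.om A.H.nd (by have := A.h7; omega) h'
  rw [← A.H.norm hg (Sl ω y x), A.map_Sl hg h, g1, g2]

theorem norm_Sl_le (h : Pr f y x) :
    ‖Sl (F := F) ω y x‖ ^ 2 ≤ Fintype.card F ^ 2 * (Fintype.card F - 1) := by
  classical
  have a1 : ∀ (a : F) (ha : a ≠ 0) (s : F), ⟪ω (a • x + s • y) y, Sl (F := F) ω y x⟫_ℂ =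
      ⟪ω x y, Sl (F := F) ω y x⟫_ℂ := fun a ha s => by
    obtain ⟨g, hg, g1, g2⟩ := h.om A.H.nd (by have := A.h7; omega) (h.comb ha s)
    rw [← A.H.inner hg (ω x y), A.map hg h.symm, A.map_Sl hg h, g1, g2, Sl_comb _ ha]
  have a2 : ‖Sl (F := F) ω y x‖ ^ 2 =
      (Fintype.card F - 1) * Fintype.card F * ‖⟪ω x y, Sl (F := F) ω y x⟫_ℂ‖ := by
    have : ⟪Sl (F := F) ω y x, Sl (F := F) ω y x⟫_ℂ = ((Fintype.card F - 1) * Fintype.card F : ℕ) *
        ⟪ω x y, Sl (F := F) ω y x⟫_ℂ := by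
      nth_rw 1 [Sl]
      simp [sum_inner, a1, Fintype.card_units]
    have := congrArg (‖·‖) this
    simp only [norm_mul, Complex.norm_natCast, inner_self_eq_norm_sq_to_K, norm_pow] at this
    simpa [Nat.cast_pred Fintype.card_pos] using this
  have p : ∀ a : Fˣ, Pr f ((a : F) • x) y := fun a => by simpa using (h.comb a.ne_zero 0).symm
  have a3 := Orthonormal.sum_inner_products_le (𝕜 := ℂ) (v := fun a : Fˣ => ω ((a : F) • x) y)
    (s := Finset.univ) (Sl (F := F) ω y x) ⟨fun a => A.nrm (p a), fun a b hab => by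
      have m : ∀ a : Fˣ, ω ((a : F) • x) y ∈ Wt R ψ x ((a : F)⁻¹ • y) := fun a => by
        rw [← Wt_smul h.qy a.ne_zero, smul_inv_smul₀ a.ne_zero]; exact A.mem (p a)
      refine A.H.inner_Wt (fun e => h.symm.y0 ?_) (m a) (m b)
      rwa [← sub_smul, Submodule.smul_mem_iff _ (sub_ne_zero.2 (by simpa [Units.ext_iff] using hab))] at e⟩
  have a4 := fun a : Fˣ => a1 a a.ne_zero 0
  simp only [zero_smul, add_zero] at a4
  simp only [a4, Finset.sum_const, Finset.card_univ, Fintype.card_units, nsmul_eq_mul,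
    Nat.cast_pred Fintype.card_pos] at a3
  have hq : (1 : ℝ) < Fintype.card F := by exact_mod_cast Fintype.one_lt_card
  rw [a2] at a3 ⊢
  have a5 : ‖⟪ω x y, Sl (F := F) ω y x⟫_ℂ‖ ≤ Fintype.card F := by
    by_contra hc
    push Not at hc
    nlinarith [mul_pos (mul_pos (sub_pos.2 hq) (sub_pos.2 hc)) (hc.trans' (zero_lt_one.trans hq))]
  nlinarith [mul_nonneg (mul_pos (sub_pos.2 hq) (zero_lt_one.trans hq)).le (sub_nonneg.2 a5)]

theorem norm_Sl_two (hq : Fintype.card F = 2) (h : Pr f y x) : ‖Sl (F := F) ω y x‖ ^ 2 ≤ 3 := by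
  classical
  have H := A.H
  have h01 : ∀ a : F, a = 0 ∨ a = 1 := fun a => by
    by_contra hc
    push Not at hc
    have := Finset.card_le_univ ({0, 1, a} : Finset F)
    rw [Finset.card_eq_three.2 ⟨0, 1, a, zero_ne_one, hc.1.symm, hc.2.symm, rfl⟩] at this
    omega
  have h2 : (1 + 1 : F) = 0 := (h01 _).resolve_right (by simp)
  have hv : ∀ v : V, v + v = 0 := fun v => by rw [← one_smul F v, ← add_smul, h2, zero_smul]
  have hn : ∀ v : V, -v = v := fun v => neg_eq_of_add_eq_zero_left (hv v)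
  have ψ1 : ψ 1 = -1 := by
    have := AddChar.map_add_eq_mul ψ 1 1
    rw [h2, AddChar.map_zero_eq_one] at this
    refine (mul_self_eq_one_iff.1 this.symm).resolve_left fun e => H.ψ1 (AddChar.ext _ _ fun a => ?_)
    rcases h01 a with rfl | rfl <;> simp [e]
  have p1 : Pr f (x + y) y := by simpa using (h.comb one_ne_zero 1).symm
  have p2 : Pr f y (x + y) := p1.symm
  have e1 : Sl (F := F) ω y x = ω x y + ω (x + y) y := by
    rw [Sl, Fintype.sum_prod_type, Fintype.sum_eq_single (1 : Fˣ) (fun a ha => absurd (Units.ext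
      ((h01 a).resolve_left a.ne_zero)) ha), Fintype.sum_eq_add (0 : F) 1 zero_ne_one
      fun a ha => absurd (h01 a) (not_or.2 ha)]
    simp
  have e2 : ∀ v, f.B v x = 0 → f.B v y = 1 → R (Ev f x v) (ω (x + y) y) = ω y (x + y) ∧
      R (Ev f x v) (ω y (x + y)) = ω (x + y) y := fun v h1 h2 => by
    have : (Ev f x v).1 y = x + y := by
      rw [Ev_orth h.qy h1 (f.B_eq_zero_symm h.yx), orth_symm, h2, one_smul, sub_eq_neg_add, hn]
    rw [A.map (H.E _ _) p1, A.map (H.E _ _) p2, map_add, Ev_self, this, ← add_assoc, hv, zero_add]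
    exact ⟨rfl, rfl⟩
  have e3 : ω (x + y) y - ω y (x + y) ∈ Wt R ψ x y := mem_Wt.2 fun v h1 => by
    rcases h01 (f.B v y) with h2 | h2
    · rw [map_sub, A.map (H.E _ _) p1, A.map (H.E _ _) p2, map_add, Ev_self,
        Ev_fix (f.B_eq_zero_symm h.yx) (f.B_eq_zero_symm h2), h2]
      simp
    · rw [map_sub, (e2 v h1 h2).1, (e2 v h1 h2).2, h2, ψ1]; simp
  obtain ⟨v, v1, v2⟩ := exists_B_two H.nd h.symm.x0 h.symm.y0 0 1
  obtain ⟨u, u1, u2⟩ := exists_B_two H.nd h.x0 h.y0 0 1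
  rw [orth_symm] at v1 v2 u1 u2
  have e4 : ⟪ω x y, ω y (x + y)⟫_ℂ = -⟪ω x y, ω (x + y) y⟫_ℂ := by
    rw [← H.inner (H.E x v) _ (ω (x + y) y), (e2 v v1 v2).1, mem_Wt.1 (A.mem h.symm) v v1, v2, ψ1]
    simp
  have e5 : ⟪ω (x + y) y, ω y (x + y)⟫_ℂ = ⟪ω x y, ω (x + y) y⟫_ℂ := by
    rw [← neg_inj, ← e4, ← H.inner (H.E y u) (ω x y), mem_Wt.1 (A.mem p2) u u1, B_add_right, u1, u2,
      add_zero, ψ1, A.map (H.E _ _) h.symm, Ev_self, Ev_orth h.qx u1 h.yx, orth_symm, u2, one_smul,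
      sub_eq_add_neg, hn]
    simp
  have e6 := congrArg (‖·‖ ^ 2) (A.eq_smul h.symm e3)
  simp only [norm_sub_sq (𝕜 := ℂ), A.nrm p1, A.nrm p2, e5, norm_smul, A.nrm h.symm, inner_sub_right,
    e4, sub_neg_eq_add, ← two_mul, norm_mul, Complex.norm_two, RCLike.re_to_complex] at e6
  rw [e1, norm_add_sq (𝕜 := ℂ), A.nrm p1, A.nrm h.symm, RCLike.re_to_complex]
  nlinarith [Complex.re_le_norm ⟪ω x y, ω (x + y) y⟫_ℂ, norm_nonneg ⟪ω x y, ω (x + y) y⟫_ℂ]

theorem re_tri (h : Tri f y x x') : (⟪Sl (F := F) ω y x', Sl (F := F) ω y x⟫_ℂ).re =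
    (Fintype.card F - 1) ^ 2 * Fintype.card F := by
  have hq : (2 : ℝ) ≤ Fintype.card F := by exact_mod_cast Fintype.one_lt_card
  have h1 : conj ⟪ω x' y, ω x y⟫_ℂ = ⟪ω x' y, ω x y⟫_ℂ := by
    rw [inner_conj_symm, A.inner_tri h h.swap]
  obtain ⟨r, hr⟩ := Complex.conj_eq_iff_real.1 h1
  have h2 := A.norm_tri h
  have h3 : ∀ {x₁ x₁'}, Tri f y x₁ x₁' → (⟪Sl (F := F) ω y x₁', Sl (F := F) ω y x₁⟫_ℂ).re =
      ((Fintype.card F - 1) * Fintype.card F) ^ 2 * r := fun h' => by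
    rw [A.inner_Sl_tri h', A.inner_tri h' h, hr]
    norm_cast
  have t1 : Tri f y x (x + x') := ⟨h.x0, h.y0, fun e => h.z0 ((Submodule.add_mem_iff_right _
    (Submodule.subset_span (by simp))).1 e), h.qx, h.qy,
    by simp [orth_Q_add, h.qy, h.qz, f.B_eq_zero_symm h.zy], h.yx, by simp [h.yx, h.zx],
    by simp [h.zy, f.B_self_of_Q h.qy]⟩
  have t2 : Tri f y x' (x + x') := ⟨h.x0, h.swap.y0, fun e => h.swap.z0 ((Submodule.add_mem_iff_left _
    (Submodule.subset_span (by simp))).1 e), h.qx, h.qz, t1.qz, h.zx, t1.zx,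
    by simp [h.swap.zy, f.B_self_of_Q h.qz]⟩
  have h4 := tri_ineq (Sl (F := F) ω y (x + x')) (Sl (F := F) ω y x') (Sl (F := F) ω y x)
  rw [h3 t1, h3 t2, h3 h, A.norm_Sl h.pr h.swap.pr, A.norm_Sl h.pr t1.swap.pr] at h4
  rw [hr, Complex.norm_real, Real.norm_eq_abs] at h2
  rw [h3 h]
  rcases abs_cases r with ⟨e, -⟩ | ⟨e, -⟩ <;> rw [e] at h2
  · linear_combination (Fintype.card F - 1 : ℝ) ^ 2 * Fintype.card F * h2
  exfalso
  have h5 : ((Fintype.card F - 1) * Fintype.card F : ℝ) ^ 2 * r =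
      -((Fintype.card F - 1) ^ 2 * Fintype.card F) := by
    linear_combination -(Fintype.card F - 1 : ℝ) ^ 2 * Fintype.card F * h2
  rw [h5] at h4
  by_cases h6 : Fintype.card F = 2
  · have := A.norm_Sl_two h6 h.pr
    rw [h6] at h4
    norm_num at h4
    linarith
  · have h7 : (3 : ℝ) ≤ Fintype.card F := by
      exact_mod_cast (show 3 ≤ Fintype.card F by have := Fintype.one_lt_card (α := F); omega)
    have := A.norm_Sl_le h.pr
    nlinarith [mul_pos (mul_pos (show (0 : ℝ) < Fintype.card F by linarith)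
      (show (0 : ℝ) < Fintype.card F - 1 by linarith)) (show (0 : ℝ) < Fintype.card F - 2 by linarith)]

omit [FiniteDimensional ℂ W] in
theorem exists_quad (h : Pr f y x) (he : f.HypPair x x') (h1 : f.B y x' = 0) :
    ∃ u u', f.HypPair u u' ∧ Tri f y u x ∧ Tri f y u x' ∧ Tri f y u' x ∧ Tri f y u' x' := by
  have s := @B_eq_zero_symm _ _ _ _ _ _ f
  obtain ⟨u, u1, u', u2, hu, a, b, c, d⟩ := exists_hyp_perp_hyp A.H.nd he (S := F ∙ y)
    ((Submodule.span_singleton_le_iff_mem _ _).2 (mem_orth_pair.2 ⟨s h.yx, h1⟩))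
    (by rw [finrank_span_singleton h.x0]; have := A.h7; omega)
  rw [mem_orth_singleton] at u1 u2
  have key : ∀ {x x' u u'}, f.HypPair x x' → f.HypPair u u' → f.B y x = 0 → f.B y x' = 0 →
      f.B u y = 0 → f.B u' y = 0 → f.B u x = 0 → f.B u x' = 0 → Tri f y u x :=
    fun he hu a b c d e e' => ⟨h.x0, not_mem_span_of_B (s d) (by simp [hu.Bue]),
      not_mem_pair_of_B b e' (by simp [he.Bue]), h.qx, hu.Qu, he.Qu, c, s a, s e⟩
  exact ⟨u, u', hu, key he hu (s h.yx) h1 u1 u2 a b, key (hyp_swap he) hu h1 (s h.yx) u1 u2 b a,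
    key he (hyp_swap hu) (s h.yx) h1 u2 u1 c d, key (hyp_swap he) (hyp_swap hu) h1 (s h.yx) u2 u1 d c⟩

theorem re_nonneg (h : Pr f y x) (h' : Pr f y x') :
    0 ≤ (⟪Sl (F := F) ω y x, Sl (F := F) ω y x'⟫_ℂ).re := by
  have hq : (2 : ℝ) ≤ Fintype.card F := by exact_mod_cast Fintype.one_lt_card
  have s := @B_eq_zero_symm _ _ _ _ _ _ f
  by_cases h1 : f.B x x' = 0
  · by_cases h2 : x ∈ Submodule.span F {y, x'}
    · obtain ⟨a, b, rfl⟩ := Submodule.mem_span_pair.1 h2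
      have hb : b ≠ 0 := by
        rintro rfl
        exact h.y0 (Submodule.mem_span_singleton.2 ⟨a, by simp⟩)
      rw [add_comm, Sl_comb _ hb, re_self]
      positivity
    · rw [A.re_tri ⟨h.x0, h'.y0, h2, h.qx, h'.qy, h.qy, h'.yx, h.yx, h1⟩]
      positivity
  have he := hypPair_of_ne h.qy h'.qy h1
  have hs : (Param.orth F).σ (f.B x x')⁻¹ ≠ 0 := by simpa
  have p := h'.comb hs 0
  rw [← Sl_comb ω (x := x') hs 0]
  simp only [zero_smul, add_zero] at p ⊢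
  obtain ⟨u, u', hu, t1, t2, t3, t4⟩ := A.exists_quad h he (s p.yx)
  obtain ⟨g, hg, g1, g2, g3⟩ := om_hyp A.H.nd (by have := A.h7; omega) he hu h.x0 h.x0 (s h.yx)
    (s p.yx) (s t1.yx) (s t3.yx) rfl
  generalize (Param.orth F).σ (f.B x x')⁻¹ • x' = e at *
  have e1 := A.H.inner hg (Sl (F := F) ω y x) (Sl (F := F) ω y e)
  rw [A.map_Sl hg h, A.map_Sl hg p, g1, g2, g3] at e1
  have := quad_ineq (Sl (F := F) ω y x) (Sl (F := F) ω y e) (Sl (F := F) ω y u) (Sl (F := F) ω y u')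
  rw [A.re_tri t1, A.re_tri t2, A.re_tri t3, A.re_tri t4, A.norm_Sl h p, A.norm_Sl h t1.pr,
    A.norm_Sl h t3.pr, e1] at this
  nlinarith [A.norm_Sl_le h, mul_nonneg (mul_nonneg (show (0 : ℝ) ≤ Fintype.card F by linarith)
      (show (0 : ℝ) ≤ Fintype.card F - 1 by linarith)) (show (0 : ℝ) ≤ Fintype.card F - 2 by linarith)]

theorem exists_fix (h : Pr f y x) : ∃ z : W, z ≠ 0 ∧
    (∀ g ∈ commutator f.Isom, g.1 y = y → R g z = z) ∧
    ∀ u, (∀ g ∈ commutator f.Isom, R g u = u) → ⟪u, z⟫_ℂ = 0 := by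
  classical
  refine ⟨∑ x ∈ Finset.univ.filter (Pr f y), Sl (F := F) ω y x, fun e => ?_, fun g hg g1 => ?_,
    fun u hu => ?_⟩
  · have h1 := congrArg (fun z => (⟪Sl (F := F) ω y x, z⟫_ℂ).re) e
    simp only [inner_sum, Complex.re_sum, inner_zero_right, Complex.zero_re] at h1
    have h2 := (Finset.sum_eq_zero_iff_of_nonneg fun x' hx' =>
      A.re_nonneg h (Finset.mem_filter.1 hx').2).1 h1 x (by simpa)
    obtain ⟨e, he, h3⟩ := A.H.nd.exists_hypPair_orth h.qy h.y0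
      (mem_orth'.1 (mem_orth_singleton.2 h.yx))
    obtain ⟨u, -, -, t, -⟩ := A.exists_quad h he (h3 y (Submodule.mem_span_singleton_self y))
    have h4 := A.re_tri t
    rw [re_self, sq_eq_zero_iff, norm_eq_zero] at h2
    have hq : (1 : ℝ) < Fintype.card F := by exact_mod_cast Fintype.one_lt_card
    rw [h2, inner_zero_left, Complex.zero_re] at h4
    exact absurd h4 (ne_of_lt (by have := sub_pos.2 hq; positivity))
  · rw [map_sum]
    refine Finset.sum_bijective g.1 g.1.bijective (fun x => ?_) fun x hx => ?_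
    · simp only [Finset.mem_filter, Finset.mem_univ, true_and]
      exact ⟨fun h => g1 ▸ h.map g, fun h => by
        simpa only [Isom.inv_apply] using (show Pr f (g.1 y) (g.1 x) from g1.symm ▸ h).map g⁻¹⟩
    · rw [A.map_Sl hg (Finset.mem_filter.1 hx).2, g1]
  · simp only [inner_sum, Sl]
    refine Finset.sum_eq_zero fun x hx => Finset.sum_eq_zero fun p _ => ?_
    have := ((Finset.mem_filter.1 hx).2.comb p.1.ne_zero p.2).symm
    exact A.H.inner_Wt (μ := 0) (by simpa using this.y0)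
      (mem_Wt.2 fun v _ => by simp [hu _ (A.H.E _ _)]) (A.mem this)

end Fam

end Cfsg.Agent.OD
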