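import Cfsg.Agent.Lib.OD.Cnt

/-!
Representations of `Ω` with a vector fixed by the stabiliser of a singular vector.
-/

set_option autoImplicit false

namespace Cfsg.Agent.OD

open Module Cfsg.Agent.Forms Cfsg.Agent.Forms.Form Cfsg.Agent.MI Cfsg.Agent.Deg Finset
open scoped InnerProductSpace ComplexConjugate

variable {F : Type*} [Field F] {V : Type*} [AddCommGroup V] [Module F V]
  {f : Form (Param.orth F) V} {W : Type*} [NormedAddCommGroup W] [InnerProductSpace ℂ W]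
  {R : f.Isom → End ℂ W} {ψ : AddChar F ℂ} {x x' y y' v : V} {g : f.Isom}
  [Fintype F] [Fintype V] {k n : ℕ}

theorem om_one (hf : f.Nondeg) (h5 : 5 ≤ finrank F V) (hx : x ≠ 0) (hy : y ≠ 0)
    (h : f.Q x = f.Q y) : ∃ g ∈ commutator f.Isom, g.1 x = y := by
  obtain ⟨g, e⟩ := hf.witt_one hx hy (by rw [orth_B_self, orth_B_self, h]) h
  obtain ⟨g', h2, h3⟩ := exists_om_fix' hf h5 (S := F ∙ x)
    (by rw [finrank_span_singleton hx]; omega) g
  exact ⟨g', h2, by rw [h3 x (Submodule.mem_span_singleton_self x), e]⟩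

theorem exists_pr_perp (hf : f.Nondeg) (h5 : 5 ≤ finrank F V) (h : f.HypPair x y) :
    ∃ v, Pr f x v ∧ f.B v y = 0 :=
  let ⟨v, h0, h1, h2, h3⟩ := orth_rk2 hf h5 x y h
  ⟨v, ⟨h.u_ne_zero, fun e => by
    obtain ⟨t, rfl⟩ := Submodule.mem_span_singleton.1 e
    exact h0 (by simp [show t = 0 by simpa [h.Bue] using h3]), h.Qu, h1, h2⟩, h3⟩

variable (R ψ) in
/-- an equivariant family of vectors indexed by singular vectors -/
structure Fr (ζ : V → W) (χ : F → ℂ) : Prop where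
  H : UR f R ψ
  h7 : 7 ≤ finrank F V
  hn : ∀ z μ, f.Q z = 0 → f.Q μ ≠ 0 → ∀ w ∈ Wt R ψ z μ, w = 0
  nrm : ∀ {x}, f.Q x = 0 → x ≠ 0 → ‖ζ x‖ = 1
  map : ∀ {g x}, g ∈ commutator f.Isom → f.Q x = 0 → x ≠ 0 → R g (ζ x) = ζ (g.1 x)
  smul : ∀ {a x}, a ≠ 0 → f.Q x = 0 → x ≠ 0 → ζ (a • x) = χ a • ζ x
  perp : ∀ {x u}, f.Q x = 0 → x ≠ 0 → (∀ g ∈ commutator f.Isom, R g u = u) → ⟪u, ζ x⟫_ℂ = 0

theorem UR.exists_fr [FiniteDimensional ℂ W] (H : UR f R ψ) (h7 : 7 ≤ finrank F V)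
    (hn : ∀ z μ, f.Q z = 0 → f.Q μ ≠ 0 → ∀ w ∈ Wt R ψ z μ, w = 0) (hy : f.Q y = 0) (hy0 : y ≠ 0)
    {z : W} (h0 : z ≠ 0) (h1 : ∀ g ∈ commutator f.Isom, g.1 y = y → R g z = z)
    (h2 : ∀ u, (∀ g ∈ commutator f.Isom, R g u = u) → ⟪u, z⟫_ℂ = 0) : ∃ ζ χ, Fr R ψ ζ χ := by
  classical
  let Y : Submodule ℂ W :=
    { carrier := {z | (∀ g ∈ commutator f.Isom, g.1 y = y → R g z = z) ∧
        ∀ u, (∀ g ∈ commutator f.Isom, R g u = u) → ⟪u, z⟫_ℂ = 0}
      zero_mem' := by simp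
      add_mem' := fun ha hb => ⟨fun g a b => by rw [map_add, ha.1 g a b, hb.1 g a b],
        fun u a => by rw [inner_add_right, ha.2 u a, hb.2 u a, add_zero]⟩
      smul_mem' := fun c _ ha => ⟨fun g a b => by rw [map_smul, ha.1 g a b],
        fun u a => by rw [inner_smul_right, ha.2 u a, mul_zero]⟩ }
  obtain ⟨a₀, ha₀⟩ := IsCyclic.exists_monoid_generator (α := Fˣ)
  obtain ⟨h, hh, h3⟩ := om_one H.nd H.h5 hy0 (smul_ne_zero a₀.ne_zero hy0)
    (by rw [orth_Q_smul, hy, mul_zero])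
  obtain ⟨z', ⟨z1, z2⟩, z0, z3⟩ := exists_common_eigenvector (fun _ : Unit => R h) (fun _ _ => rfl) Y
    (fun e => h0 ((Submodule.eq_bot_iff _).1 e z ⟨h1, h2⟩)) fun _ w hw => ⟨fun g hg e => by
      have := mul_mem (inv_mem hh) (mul_mem hg hh)
      rw [← H.app hg hh, ← mul_inv_cancel_left h (g * h), H.app hh this, hw.1 _ this]
      rw [Isom.mul_apply, Isom.mul_apply, h3, map_smul, e, ← h3, Isom.inv_apply],
      fun u hu => by rw [← hu h hh, H.inner hh, hw.2 u hu]⟩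
  obtain ⟨c, hc⟩ := z3 ()
  obtain ⟨w, w0, w1, w2, w3⟩ : ∃ w, ‖w‖ = 1 ∧ (∀ g ∈ commutator f.Isom, g.1 y = y → R g w = w) ∧
      (∀ u, (∀ g ∈ commutator f.Isom, R g u = u) → ⟪u, w⟫_ℂ = 0) ∧ R h w = c • w :=
    ⟨_, norm_smul_inv_norm (𝕜 := ℂ) z0, fun g a b => by rw [map_smul, z1 g a b],
      fun u a => by rw [inner_smul_right, z2 u a, mul_zero], by rw [map_smul, hc, smul_comm]⟩
  have p : ∀ m : ℕ, R (h ^ m) w = c ^ m • w ∧ (h ^ m).1 y = (a₀ : F) ^ m • y := fun m => by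
    induction m with
    | zero => simp [H.one]
    | succ m ih =>
      rw [pow_succ, H.app (pow_mem hh m) hh, w3, map_smul, ih.1, Isom.mul_apply, h3, map_smul, ih.2]
      simp [smul_smul, pow_succ']
  choose g g1 g2 using fun x (h : f.Q x = 0 ∧ x ≠ 0) => om_one H.nd H.h5 hy0 h.2 (hy.trans h.1.symm)
  let ζ : V → W := fun x => if h : f.Q x = 0 ∧ x ≠ 0 then R (g x h) w else 0
  have e : ∀ k ∈ commutator f.Isom, ζ (k.1 y) = R k w := fun k hk => by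
    have h4 : f.Q (k.1 y) = 0 ∧ k.1 y ≠ 0 := ⟨by rwa [Isom.map_Q], by simpa⟩
    have := mul_mem (inv_mem hk) (g1 _ h4)
    simp only [ζ, dif_pos h4]
    rw [← mul_inv_cancel_left k (g _ _), H.app hk this, w1 _ this]
    rw [Isom.mul_apply, g2, Isom.inv_apply]
  have e' : ∀ {x}, f.Q x = 0 → x ≠ 0 → ∃ k ∈ commutator f.Isom, k.1 y = x := fun a b =>
    ⟨_, g1 _ ⟨a, b⟩, g2 _ _⟩
  choose m hm using fun a : Fˣ => (Submonoid.mem_powers_iff _ _).1 (ha₀ a)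
  refine ⟨ζ, fun a => if h : a = 0 then 0 else c ^ m (Units.mk0 a h), H, h7, hn, fun a b => ?_,
    fun hk a b => ?_, fun {a x} ha b d => ?_, fun a b hu => ?_⟩ <;>
    obtain ⟨k, k1, rfl⟩ := e' (by assumption) (by assumption)
  · rw [e k k1, H.norm k1, w0]
  · rw [e k k1, ← Isom.mul_apply, e _ (mul_mem hk k1), H.app hk k1]
  · have : a = (a₀ : F) ^ m (Units.mk0 a ha) := by rw [← Units.val_pow_eq_pow_val, hm]; rfl
    rw [dif_neg ha, e k k1, ← map_smul, ← map_smul, ← (p _).1, ← H.app k1 (pow_mem hh _),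
      ← e _ (mul_mem k1 (pow_mem hh _)), Isom.mul_apply, (p _).2, ← this]
  · rw [e k k1, ← hu k k1, H.inner k1, w2 _ hu]

namespace Fr

variable {ζ : V → W} {χ : F → ℂ} (A : Fr R ψ ζ χ)
include A

theorem inner_self (hx : f.Q x = 0) (h0 : x ≠ 0) : ⟪ζ x, ζ x⟫_ℂ = 1 := by
  rw [inner_self_eq_norm_sq_to_K, A.nrm hx h0]; simp

theorem norm_χ (hx : f.Q x = 0) (h0 : x ≠ 0) {a : F} (ha : a ≠ 0) : ‖χ a‖ = 1 := by
  have := A.nrm (x := a • x) (by rw [orth_Q_smul, hx, mul_zero]) (smul_ne_zero ha h0)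
  rwa [A.smul ha hx h0, norm_smul, A.nrm hx h0, mul_one] at this

theorem χ_mul (hx : f.Q x = 0) (h0 : x ≠ 0) {a b : F} (ha : a ≠ 0) (hb : b ≠ 0) :
    χ (a * b) = χ a * χ b := by
  have := A.smul (mul_ne_zero ha hb) hx h0
  rw [mul_smul, A.smul ha (by rw [orth_Q_smul, hx, mul_zero]) (smul_ne_zero hb h0), A.smul hb hx h0,
    smul_smul] at this
  exact smul_left_injective ℂ (fun e => by simpa [e] using A.nrm hx h0) this.symm

theorem inner_pr (h : Pr f x y) (h' : Pr f x' y') : ⟪ζ x, ζ y⟫_ℂ = ⟪ζ x', ζ y'⟫_ℂ := by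
  obtain ⟨g, hg, rfl, rfl⟩ := h.om A.H.nd (by have := A.h7; omega) h'
  rw [← A.map hg h.qx h.x0, ← A.map hg h.qy h.symm.x0, A.H.inner hg]

theorem inner_hyp (h : f.HypPair x y) (hx : f.Q x' = 0) (hy : f.Q y' = 0) (h' : f.B x' y' ≠ 0) :
    ⟪ζ x', ζ y'⟫_ℂ = χ (f.B x' y') * ⟪ζ x, ζ y⟫_ℂ := by
  obtain ⟨g, hg, g1, g2⟩ := om_two A.H.nd (by have := A.h7; omega) h.u_ne_zero
    (not_mem_span_of_B h.Buu (w := y) (by simp [h.Beu])) (x' := x') (y' := (f.B x' y')⁻¹ • y')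
    (by rintro rfl; simp at h') (not_mem_span_of_B (f.B_self_of_Q hx)
      (by simp [h', B_ne_symm h'])) (by rw [h.Qu, hx]) (by rw [h.Qe, orth_Q_smul, hy, mul_zero])
    (by simp [h.Bue, h'])
  rw [← A.H.inner hg (ζ x), A.map hg h.Qu h.u_ne_zero, A.map hg h.Qe h.e_ne_zero, g1,
    ← inner_smul_right, ← A.smul h' (by rw [Isom.map_Q, h.Qe]) (by simpa using h.e_ne_zero), g2,
    smul_inv_smul₀ h']

variable (N : Num f k n)
include N

theorem spec (h : f.HypPair y x) : ∃ a κ : ℝ, ∀ v, f.B v y = 0 →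
    Fintype.card F * ⟪ζ x, ζ ((Ev f y v).1 x)⟫_ℂ =
      Fintype.card F * a + κ * (Tc f ψ y v - Fintype.card F) := by
  classical
  have H := A.H
  obtain ⟨μ₀, m1, m2⟩ := exists_pr_perp H.nd H.h5 h
  refine ⟨‖Pw R ψ y 0 (ζ x)‖ ^ 2, ‖Pw R ψ y μ₀ (ζ x)‖ ^ 2, fun v hv => ?_⟩
  have a1 : ∀ μ, Pr f y μ → ‖Pw R ψ y μ (ζ x)‖ = ‖Pw R ψ y μ₀ (ζ x)‖ := fun μ hμ => by
    have p := hμ.comb one_ne_zero (-f.B μ x)
    obtain ⟨g, hg, g1, g2, g3⟩ := om_hyp H.nd (by have := A.h7; omega) h h m1.symm.x0 p.symm.x0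
      m1.yx m2 p.yx (by simp [h.Bue]) (m1.qy.trans p.qy.symm)
    have := H.Pw_map hg y μ₀ (ζ x)
    rw [A.map hg h.Qe h.e_ne_zero, g1, g2, g3, Pw_add, one_smul] at this
    rw [this, H.norm hg]
  rw [← A.map (H.E _ _) h.Qe h.e_ne_zero, H.coef h.Qu h.u_ne_zero hv,
    ← sum_subset (subset_univ (Pp f y)) fun μ _ hμ => by
      rw [show Pw R ψ y μ (ζ x) = 0 from by
        by_cases h1 : f.B μ y = 0
        · exact A.hn y μ h.Qu (fun e => hμ (mem_Pp.2 ⟨h1, e⟩)) _ (H.Pw_mem h.Qu _ _)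
        · exact H.Wt_eq_zero h.Qu h1 (H.Pw_mem h.Qu _ _)]
      simp,
    Tc, sum_perp_split h.Qu h.u_ne_zero, sum_perp_split h.Qu h.u_ne_zero,
    sum_congr (s₁ := univ.filter (Pr f y)) rfl fun μ hμ => by rw [a1 μ (mem_filter.1 hμ).2],
    ← sum_mul]
  have a2 : ∀ t : F, Pw R ψ y (t • y) = Pw R ψ y 0 := fun t => by rw [← Pw_add (μ := 0) t, zero_add]
  simp only [a2, orth_B_smul_right, hv, mul_zero, AddChar.map_zero_eq_one, sum_const, card_univ,
    nsmul_eq_mul]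
  push_cast; ring

theorem rel (h : f.HypPair y x) (hv : Pr f x v) : ∃ a κ : ℂ,
    (Fintype.card F : ℂ) = Fintype.card F * a + κ * (n - Fintype.card F) ∧
    Fintype.card F * ⟪ζ x, ζ v⟫_ℂ =
      Fintype.card F * a + κ * (n - Fintype.card F ^ k - Fintype.card F) ∧
    ∀ u ∈ Ns f y, Fintype.card F * (χ (-f.Q u) * ⟪ζ y, ζ x⟫_ℂ) =
      Fintype.card F * a + κ * (Tc f ψ y u - Fintype.card F) := by
  obtain ⟨a, κ, e⟩ := A.spec N h
  refine ⟨a, κ, ?_, ?_, fun u hu => ?_⟩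
  · have h1 := N.Tc_self (ψ := ψ) h.Qu h.u_ne_zero 0
    have h2 := e 0 (by simp)
    rw [zero_smul] at h1
    rwa [h1, Ev_zero, Isom.one_apply, A.inner_self h.Qe h.e_ne_zero, mul_one] at h2
  · obtain ⟨μ, m1, m2⟩ := exists_pr_perp A.H.nd A.H.h5 h
    have h1 : (Ev f y μ).1 x = (1 : F) • μ + (1 : F) • x := by
      rw [Ev_apply h.Qu m1.yx, h.Beu, f.B_eq_zero_symm m2, m1.qy]; simp [add_comm]
    rw [← N.Tc_pr A.H.ψ1 m1, ← e μ m1.yx, h1, A.inner_pr hv (Pr.comb ⟨h.e_ne_zero, fun e => ?_, h.Qe,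
      m1.qy, m2⟩ one_ne_zero 1)]
    obtain ⟨t, rfl⟩ := Submodule.mem_span_singleton.1 e
    exact m1.symm.x0 (by simp [show t = 0 by simpa [h.Beu] using m1.yx])
  · obtain ⟨u1, u2⟩ := mem_Ns.1 hu
    have h1 : f.B x ((Ev f y u).1 x) = -f.Q u := by
      rw [Ev_apply h.Qu u1]; simp [h.Beu, h.Bee]
    rw [← e u u1, A.inner_hyp h h.Qe (by rw [Isom.map_Q, h.Qe]) (by simpa [h1]), h1]

theorem R0 (h : f.HypPair y x) (hv : Pr f x v) (h1 : ∀ a, a ≠ 0 → χ a = 1) :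
    (Fintype.card F - 1) + (n - Fintype.card F) * ⟪ζ x, ζ v⟫_ℂ +
      (Fintype.card F - 1) * Fintype.card F ^ k * ⟪ζ y, ζ x⟫_ℂ = 0 := by
  have h2 : ∀ g ∈ commutator f.Isom, R g (∑ u ∈ Sg f, ζ u) = ∑ u ∈ Sg f, ζ u := fun g hg => by
    rw [map_sum]
    exact sum_bijective g.1 g.1.bijective (fun x => by simp [mem_Sg, Isom.map_Q]) fun x hx =>
      A.map hg (mem_Sg.1 hx).1 (mem_Sg.1 hx).2
  have h3 := inner_eq_zero_symm.1 (A.perp h.Qe h.e_ne_zero h2)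
  rw [inner_sum, N.sum_Sg h.Qe h.e_ne_zero _ (c₀ := 1) (fun a ha => by
      rw [A.smul ha h.Qe h.e_ne_zero, h1 a ha, one_smul, A.inner_self h.Qe h.e_ne_zero])
    (fun u hu => A.inner_pr hu hv) fun u u1 u2 => by
      rw [A.inner_hyp h h.Qe u1 (B_ne_symm u2), h1 _ (B_ne_symm u2), one_mul]] at h3
  rwa [mul_one] at h3

theorem R1 [FiniteDimensional ℂ W] (h : f.HypPair y x) (hv : Pr f x v) :
    (n + (Fintype.card F - 1) * Fintype.card F ^ k - 1 : ℝ) ≤ finrank ℂ W *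
      ((Fintype.card F - 1) + (n - Fintype.card F) * ‖⟪ζ x, ζ v⟫_ℂ‖ ^ 2 +
        (Fintype.card F - 1) * Fintype.card F ^ k * ‖⟪ζ y, ζ x⟫_ℂ‖ ^ 2) := by
  have h1 := welch (Sg f) ζ fun u hu => A.nrm (mem_Sg.1 hu).1 (mem_Sg.1 hu).2
  have h2 : ((Sg f).card : ℝ) = n + (Fintype.card F - 1) * Fintype.card F ^ k - 1 := by
    have := N.sum_Sg h.Qe h.e_ne_zero (fun _ => 1) (fun _ _ => rfl) (fun _ _ => rfl)
      fun _ _ _ => rfl
    rw [sum_const, nsmul_eq_mul, mul_one] at this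
    exact_mod_cast (by rw [this]; ring : ((Sg f).card : ℂ) =
      n + (Fintype.card F - 1) * Fintype.card F ^ k - 1)
  rw [sum_congr rfl (g := fun _ => (Fintype.card F - 1) + (n - Fintype.card F) * ‖⟪ζ x, ζ v⟫_ℂ‖ ^ 2 +
    (Fintype.card F - 1) * Fintype.card F ^ k * ‖⟪ζ y, ζ x⟫_ℂ‖ ^ 2) fun u hu => by
      obtain ⟨u1, u2⟩ := mem_Sg.1 hu
      have := N.sum_Sg u1 u2 (fun w => ((‖⟪ζ u, ζ w⟫_ℂ‖ ^ 2 : ℝ) : ℂ)) (c₀ := 1) (fun a ha => by
          rw [A.smul ha u1 u2, inner_smul_right, A.inner_self u1 u2, mul_one, A.norm_χ u1 u2 ha]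
          simp)
        (fun w hw => by rw [A.inner_pr hw hv]) fun w w1 w2 => by
          rw [A.inner_hyp h u1 w1 (B_ne_symm w2), norm_mul, A.norm_χ u1 u2 (B_ne_symm w2), one_mul]
      rw [mul_one] at this
      exact_mod_cast this, sum_const, nsmul_eq_mul, sq, mul_left_comm] at h1
  rw [← h2]
  exact le_of_mul_le_mul_left h1 (by
    exact_mod_cast card_pos.2 ⟨x, mem_Sg.2 ⟨h.Qe, h.e_ne_zero⟩⟩)

omit N in
theorem inner_eq_zero (hv : Pr f x v) {a : F} (ha : a ≠ 0) (h1 : χ a ≠ 1) : ⟪ζ x, ζ v⟫_ℂ = 0 := by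
  have := A.inner_pr (hv.comb ha 0) hv
  rw [zero_smul, add_zero, A.smul ha hv.qy hv.symm.x0, inner_smul_right] at this
  exact (mul_left_eq_self₀.1 this).resolve_left h1

omit N in
theorem exists_pts : ∃ x y v, f.HypPair y x ∧ Pr f x v := by
  obtain ⟨y, -, x, -, h⟩ := exists_hyp_orth A.H.nd ⊥ (by have := A.h7; simp; omega)
  obtain ⟨v, hv, -⟩ := exists_pr_perp A.H.nd A.H.h5 (hyp_swap h)
  exact ⟨x, y, v, h, hv⟩

theorem odd [FiniteDimensional ℂ W] (hn : n = Fintype.card F ^ k) :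
    Fintype.card F ^ (k + 1) - 1 ≤ (Fintype.card F ^ 2 - 1 : ℝ) * finrank ℂ W := by
  obtain ⟨x, y, v, h, hv⟩ := A.exists_pts
  obtain ⟨a, κ, e1, e2, e3⟩ := A.rel N h hv
  have s1 := N.sum_Tc h.Qu h.u_ne_zero A.H.ψ1
  have s2 := N.sum_Tc_sq h.Qu h.u_ne_zero A.H.ψ1
  have s3 := N.card_Ns h.Qu h.u_ne_zero
  have r0 := A.R0 N h hv
  have r1 := A.R1 N h hv
  have nχ := @A.norm_χ _ _ _ _ _ _ _ _ _ _ _ _ _ _ _ _ h.Qu h.u_ne_zero
  have hk : 1 < k := by have := A.h7; have := N.hk; omega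
  have q1 := Fintype.one_lt_card (α := F)
  have q2 : (Fintype.card F : ℂ) ≠ 0 := Nat.cast_ne_zero.2 Fintype.card_ne_zero
  have q3 : (Fintype.card F : ℂ) - 1 ≠ 0 := sub_ne_zero.2 (by exact_mod_cast q1.ne')
  have q4 : (Fintype.card F : ℂ) ^ k ≠ 0 := pow_ne_zero _ q2
  have q5 : (Fintype.card F : ℂ) ^ k - Fintype.card F ≠ 0 := sub_ne_zero.2 (by
    exact_mod_cast (by simpa using Nat.pow_lt_pow_right q1 hk : _ < _).ne')
  subst hn
  push_cast at *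
  by_cases h1 : ∀ a, a ≠ 0 → χ a = 1
  · exfalso
    have e4 : ∀ u ∈ Ns f y, κ * Tc f ψ y u = Fintype.card F * (⟪ζ y, ζ x⟫_ℂ - a + κ) := fun u hu => by
      have := e3 u hu
      rw [h1 _ (neg_ne_zero.2 (mem_Ns.1 hu).2)] at this
      linear_combination -this
    have e5 := sum_congr rfl e4
    rw [← mul_sum, s1, sum_const, nsmul_eq_mul, s3] at e5
    have e6 : ⟪ζ y, ζ x⟫_ℂ = a := sub_eq_zero.1 (mul_left_cancel₀ (mul_ne_zero (mul_ne_zero q2 q3) q4)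
      (by linear_combination -e5))
    have k0 : κ = 0 := by
      by_contra hc
      rw [sum_congr rfl (g := fun _ => (Fintype.card F : ℂ) ^ 2) fun u hu => by
        rw [mul_left_cancel₀ hc ((e4 u hu).trans (by rw [e6]; ring) : _ = κ * Fintype.card F)]
        simp [sq], sum_const, nsmul_eq_mul, s3] at s2
      exact mul_ne_zero (mul_ne_zero (mul_ne_zero q2 q3) q4) q5 (by linear_combination -s2)
    have a1 : a = 1 := mul_left_cancel₀ q2 (by rw [k0] at e1; linear_combination -e1)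
    have a2 : ⟪ζ x, ζ v⟫_ℂ = 1 := mul_left_cancel₀ q2 (by rw [k0, a1] at e2; linear_combination e2)
    have := r0 h1
    rw [a2, e6, a1] at this
    have : (Fintype.card F : ℂ) ^ (k + 1) = 1 := by linear_combination this
    exact (Nat.one_lt_pow (n := k + 1) (by omega) q1).ne' (by exact_mod_cast this)
  push Not at h1
  obtain ⟨c, c1, c2⟩ := h1
  rw [A.inner_eq_zero hv c1 c2] at e2 r1
  have a1 : a = κ := mul_left_cancel₀ q2 (by linear_combination -e2)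
  have a2 : κ * Fintype.card F ^ k = Fintype.card F := by rw [a1] at e1; linear_combination -e1
  rw [sum_congr rfl (g := fun _ => (Fintype.card F ^ k) ^ 2 * (‖⟪ζ y, ζ x⟫_ℂ‖ : ℂ) ^ 2) fun u hu => by
    have : Tc f ψ y u = Fintype.card F ^ k * (χ (-f.Q u) * ⟪ζ y, ζ x⟫_ℂ) :=
      mul_left_cancel₀ q2 (by
        linear_combination -Tc f ψ y u * a2 - Fintype.card F ^ k * e3 u hu -
          Fintype.card F ^ k * Fintype.card F * a1)
    rw [Complex.mul_conj', this, norm_mul, norm_mul, nχ (neg_ne_zero.2 (mem_Ns.1 hu).2)]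
    simp [mul_pow], sum_const, nsmul_eq_mul, s3] at s2
  have a3 : (Fintype.card F : ℂ) ^ k * (‖⟪ζ y, ζ x⟫_ℂ‖ : ℂ) ^ 2 = Fintype.card F :=
    mul_left_cancel₀ (mul_ne_zero q3 (mul_ne_zero q4 q4)) (by linear_combination s2)
  have a4 : (Fintype.card F : ℝ) ^ k * ‖⟪ζ y, ζ x⟫_ℂ‖ ^ 2 = Fintype.card F := by exact_mod_cast a3
  rw [mul_assoc, a4, norm_zero] at r1
  linear_combination r1

theorem even [FiniteDimensional ℂ W] {M : ℤ} (hM : 2 ≤ M ∨ M ≤ -2)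
    (hb : (Fintype.card F : ℤ) ^ k = Fintype.card F ^ 2 * M ^ 2)
    (hn : (n : ℤ) = Fintype.card F * (Fintype.card F * M ^ 2 + (Fintype.card F - 1) * M))
    (hc : ∀ c, c ≠ 0 → Nat.card {v // f.Q v = c} = Nat.card {v // f.Q v = 1}) :
    (Fintype.card F ^ 2 * M - 1) * (Fintype.card F * M + Fintype.card F) ≤
      (Fintype.card F ^ 2 - 1 : ℝ) * finrank ℂ W := by
  classical
  obtain ⟨x, y, v, h, hv⟩ := A.exists_pts
  obtain ⟨a, κ, e1, e2, e3⟩ := A.rel N h hv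
  have s1 := N.sum_Tc h.Qu h.u_ne_zero A.H.ψ1
  have s3 := N.card_Ns h.Qu h.u_ne_zero
  have r0 := A.R0 N h hv
  have r1 := A.R1 N h hv
  have q1 : (2 : ℤ) ≤ Fintype.card F := by exact_mod_cast Fintype.one_lt_card (α := F)
  have q2 : (Fintype.card F : ℂ) ≠ 0 := Nat.cast_ne_zero.2 Fintype.card_ne_zero
  have q3 : (M : ℂ) ≠ 0 := by exact_mod_cast (show M ≠ 0 by omega)
  have q4 : (Fintype.card F : ℂ) ^ 2 * M - 1 ≠ 0 := by
    exact_mod_cast (show (Fintype.card F : ℤ) ^ 2 * M - 1 ≠ 0 by rcases hM with h | h <;> nlinarith)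
  have q5 : (Fintype.card F : ℂ) * M - 1 ≠ 0 := by
    exact_mod_cast (show (Fintype.card F : ℤ) * M - 1 ≠ 0 by rcases hM with h | h <;> nlinarith)
  have q6 : (Fintype.card F : ℂ) - 1 ≠ 0 := by
    exact_mod_cast (show (Fintype.card F : ℤ) - 1 ≠ 0 by omega)
  have q7 : (M : ℂ) + 1 ≠ 0 := by exact_mod_cast (show M + 1 ≠ 0 by omega)
  have b1 : (Fintype.card F : ℂ) ^ k = Fintype.card F ^ 2 * M ^ 2 := by exact_mod_cast hb
  have b2 : (Fintype.card F : ℝ) ^ k = Fintype.card F ^ 2 * M ^ 2 := by exact_mod_cast hb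
  have n1 : (n : ℂ) = Fintype.card F * (Fintype.card F * M ^ 2 + (Fintype.card F - 1) * M) := by
    exact_mod_cast hn
  have n2 : (n : ℝ) = Fintype.card F * (Fintype.card F * M ^ 2 + (Fintype.card F - 1) * M) := by
    exact_mod_cast hn
  have e4 := sum_congr rfl e3
  simp only [sum_add_distrib, ← mul_sum, ← sum_mul, sum_sub_distrib, s1, sum_const, nsmul_eq_mul,
    s3] at e4
  simp only [b1, n1] at e1 e2 e4 r0 s3
  by_cases h1 : ∀ a, a ≠ 0 → χ a = 1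
  swap
  · exfalso
    push Not at h1
    obtain ⟨c, c1, c2⟩ := h1
    have a1 : ∑ t ∈ univ.erase (0 : F), χ (-t) = 0 := by
      refine (mul_left_eq_self₀.1 ?_).resolve_left c2
      rw [mul_sum]
      exact sum_bijective (c * ·) (mulLeft_bijective₀ c c1) (by simp [c1]) fun t ht => by
        rw [← A.χ_mul h.Qu h.u_ne_zero c1 (neg_ne_zero.2 (ne_of_mem_erase ht)), mul_neg]
    have a2 : ∑ u ∈ Ns f y, χ (-f.Q u) = 0 := by
      rw [← sum_fiberwise_of_maps_to' (t := univ.erase 0) (g := f.Q) (f := fun t => χ (-t))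
        (by simp [mem_Ns]), sum_congr rfl (g := fun t =>
          ((univ.filter fun v => f.B v y = 0 ∧ f.Q v = 1).card : ℂ) * χ (-t)) fun t ht => ?_,
        ← mul_sum, a1, mul_zero]
      have := (card_perp N.nd N.hk h.Qu h.u_ne_zero t).trans ((hc t (ne_of_mem_erase ht)).trans
        (card_perp N.nd N.hk h.Qu h.u_ne_zero 1).symm)
      rw [sum_const, nsmul_eq_mul, ← add_right_cancel this]
      congr 3
      ext v
      simp only [mem_filter, mem_Ns, mem_univ, true_and, and_congr_left_iff, and_iff_left_iff_imp]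
      rintro rfl _
      exact ne_of_mem_erase ht
    rw [a2] at e4
    rw [A.inner_eq_zero hv c1 c2] at e2
    have a3 : a = κ * (1 + M) := mul_left_cancel₀
      (mul_ne_zero (mul_ne_zero (mul_ne_zero (mul_ne_zero q2 q2) q3) q5) q6)
      (by linear_combination -e4)
    have a4 : κ = 0 := mul_left_cancel₀ (mul_ne_zero (mul_ne_zero q2 q2) q3)
      (by rw [a3] at e2; linear_combination -e2)
    exact q2 (by rw [a3, a4] at e1; linear_combination e1)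
  rw [sum_congr rfl (g := fun _ => 1) fun u hu => h1 _ (neg_ne_zero.2 (mem_Ns.1 hu).2), sum_const,
    nsmul_eq_mul, s3] at e4
  have a1 : a = 1 - κ * (Fintype.card F * M ^ 2 + (Fintype.card F - 1) * M - 1) :=
    mul_left_cancel₀ q2 (by linear_combination -e1)
  have a2 : ⟪ζ x, ζ v⟫_ℂ = 1 - κ * (Fintype.card F * M ^ 2) :=
    mul_left_cancel₀ q2 (by rw [a1] at e2; linear_combination e2)
  have a3 : ⟪ζ y, ζ x⟫_ℂ = 1 - κ * (Fintype.card F * M * (M + 1)) := mul_left_cancel₀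
    (mul_ne_zero (mul_ne_zero (mul_ne_zero (mul_ne_zero q2 q2) q3) q5) q6)
    (by rw [a1] at e4; linear_combination e4)
  have a4 : κ * (Fintype.card F ^ 2 * M ^ 2 * (M + 1)) = Fintype.card F * M + 1 :=
    mul_left_cancel₀ q4 (by have := r0 h1; rw [a2, a3] at this; linear_combination -this)
  have a5 : (Fintype.card F * (M + 1) : ℝ) ^ 2 * ‖⟪ζ x, ζ v⟫_ℂ‖ ^ 2 = (Fintype.card F - 1) ^ 2 := by
    have : ((Fintype.card F * (M + 1) : ℝ) : ℂ) * ⟪ζ x, ζ v⟫_ℂ = (Fintype.card F - 1 : ℝ) := by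
      rw [a2]; push_cast; linear_combination -a4
    have := congrArg (‖·‖ ^ 2) this
    simpa only [norm_mul, mul_pow, Complex.norm_real, Real.norm_eq_abs, sq_abs] using this
  have a6 : (Fintype.card F * M : ℝ) ^ 2 * ‖⟪ζ y, ζ x⟫_ℂ‖ ^ 2 = 1 := by
    have : ((Fintype.card F * M : ℝ) : ℂ) * ⟪ζ y, ζ x⟫_ℂ = -1 := by
      rw [a3]; push_cast; linear_combination -a4
    have := congrArg (‖·‖ ^ 2) this
    simpa only [norm_mul, mul_pow, Complex.norm_real, Real.norm_eq_abs, sq_abs, norm_neg, norm_one,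
      one_pow] using this
  rw [b2, n2] at r1
  have p1 : (0 : ℝ) < Fintype.card F * (M + 1) * (Fintype.card F * M + 1) := by
    exact_mod_cast (show (0 : ℤ) < Fintype.card F * (M + 1) * (Fintype.card F * M + 1) by
      rcases hM with h | h
      · positivity
      · exact mul_pos_of_neg_of_neg (by nlinarith) (by nlinarith))
  refine le_of_mul_le_mul_right ?_ p1
  have := mul_le_mul_of_nonneg_right r1 (sq_nonneg (Fintype.card F * (M + 1) : ℝ))
  linear_combination this + finrank ℂ W * (Fintype.card F * (Fintype.card F * M - 1) * (M + 1)) * a5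
    + finrank ℂ W * (Fintype.card F - 1) * (Fintype.card F * (M + 1)) ^ 2 * a6

end Fr

end Cfsg.Agent.OD
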