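import Cfsg.Agent.Lib.MI.P2
import Cfsg.Agent.Lib.MI.O9
import Cfsg.Agent.Lib.Forms.Spinor

/-!
Pointwise stabilisers in `Ω`: generation by Siegel transformations, transitivity lemmas.
-/

set_option autoImplicit false

namespace Cfsg.Agent.OD

open Module Cfsg.Agent.Forms Cfsg.Agent.Forms.Form Cfsg.Agent.MI

variable {F : Type*} [Field F] {V : Type*} [AddCommGroup V] [Module F V]
  {f : Form (Param.orth F) V} {x y z v w u e : V}

variable (f) in
open Classical in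
/-- Siegel transformation, total version -/
noncomputable def Ev (x v : V) : f.Isom :=
  if h : f.Q x = 0 ∧ f.B v x = 0 then f.siegel x v h.1 h.2 else 1

theorem Ev_eq (hx : f.Q x = 0) (hv : f.B v x = 0) : Ev f x v = f.siegel x v hx hv :=
  dif_pos ⟨hx, hv⟩

theorem Ev_apply (hx : f.Q x = 0) (hv : f.B v x = 0) (w : V) :
    (Ev f x v).1 w = w + f.B w x • v - f.B w v • x - (f.Q v * f.B w x) • x := by
  rw [Ev_eq hx hv, siegel_apply]

theorem Ev_orth (hx : f.Q x = 0) (hv : f.B v x = 0) (hw : f.B w x = 0) :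
    (Ev f x v).1 w = w - f.B w v • x := by
  rw [Ev_apply hx hv, hw]; simp

theorem Ev_fix (h1 : f.B w x = 0) (h2 : f.B w v = 0) : (Ev f x v).1 w = w := by
  by_cases h : f.Q x = 0 ∧ f.B v x = 0
  · rw [Ev_orth h.1 h.2 h1, h2]; simp
  · rw [Ev, dif_neg h]; rfl

theorem Ev_self (x v : V) : (Ev f x v).1 x = x := by
  by_cases h : f.Q x = 0 ∧ f.B v x = 0
  · exact Ev_fix (f.B_self_of_Q h.1) (f.B_eq_zero_symm h.2)
  · rw [Ev, dif_neg h]; rfl

theorem Ev_add {v' : V} (hx : f.Q x = 0) (hv : f.B v x = 0) (hv' : f.B v' x = 0) :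
    Ev f x (v + v') = Ev f x v * Ev f x v' := by
  rw [Ev_eq hx hv, Ev_eq hx hv', siegel_mul, Ev_eq]

theorem Ev_conj (g : f.Isom) (x v : V) : g * Ev f x v * g⁻¹ = Ev f (g.1 x) (g.1 v) := by
  by_cases h : f.Q x = 0 ∧ f.B v x = 0
  · rw [Ev_eq h.1 h.2, siegel_conj, Ev_eq]
  · rw [Ev, dif_neg h, Ev, dif_neg (by rwa [Isom.map_Q, Isom.map_B])]; simp

theorem Ev_smul_self (x : V) (c : F) : Ev f x (c • x) = 1 := by
  by_cases h : f.Q x = 0 ∧ f.B (c • x) x = 0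
  · rw [Ev_eq h.1 h.2, siegel_smul_self]
  · rw [Ev, dif_neg h]

theorem Ev_zero (x : V) : Ev f x 0 = 1 := by simpa using Ev_smul_self (f := f) x 0

theorem Ev_add_smul (hx : f.Q x = 0) (hv : f.B v x = 0) (c : F) :
    Ev f x (v + c • x) = Ev f x v := by
  rw [Ev_add hx hv (by simp [f.B_self_of_Q hx]), Ev_smul_self, mul_one]

theorem Ev_smul_left (hx : f.Q x = 0) (hv : f.B v x = 0) (c : F) :
    Ev f (c • x) v = Ev f x (c • v) := by
  rw [Ev_eq hx (by simp [hv]), ← siegel_smul_left _ _ _ _ hx hv, Ev_eq]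

theorem Ev_swap (hx : f.Q x = 0) (hv : f.Q v = 0) (h : f.B v x = 0) :
    Ev f x v = Ev f v (-x) :=
  Isom.ext fun w => by
    rw [Ev_apply hx h, Ev_apply hv (by simp [f.B_eq_zero_symm h]), hv, f.Q_neg, hx]
    simp only [map_neg]; module

theorem Ev_inv (hx : f.Q x = 0) (hv : f.B v x = 0) : (Ev f x v)⁻¹ = Ev f x (-v) := by
  rw [inv_eq_iff_mul_eq_one, ← Ev_add hx hv (by simp [hv]), add_neg_cancel, Ev_zero]

theorem Ev_map {b b' : V} (hu : f.Q u = 0) (h1 : f.Q b = f.Q b') (h2 : f.B b u = f.B b' u)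
    (h0 : f.B b u ≠ 0) : (Ev f u ((f.B b u)⁻¹ • (b' - b))).1 b = b' := by
  have hv : f.B ((f.B b u)⁻¹ • (b' - b)) u = 0 := by simp [h2]
  have h3 := Ev_apply hu hv b
  have h4 := Isom.map_Q (Ev f u ((f.B b u)⁻¹ • (b' - b))) b
  rw [smul_inv_smul₀ h0, add_sub_cancel, sub_sub, ← add_smul] at h3
  obtain ⟨t, ht⟩ : ∃ t : F, (Ev f u ((f.B b u)⁻¹ • (b' - b))).1 b = b' - t • u := ⟨_, h3⟩
  rw [ht, orth_Q_sub, orth_Q_smul, hu, orth_B_smul_right, h1, ← h2] at h4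
  rw [ht, show t = 0 by simpa [h0] using h4, zero_smul, sub_zero]

theorem hyp_swap (h : f.HypPair u e) : f.HypPair e u := ⟨h.Qe, h.Qu, h.Beu⟩

section FD

variable [FiniteDimensional F V]

theorem rel_step (hf : f.Nondeg) {S H : Submodule F V} {K : Subgroup f.Isom}
    (h1 : ∀ a h, a ∈ f.orth S → f.refl a h ∈ K)
    (h2 : ∀ z v, f.Q z = 0 → f.B v z = 0 → z ∈ f.orth S → v ∈ f.orth S → Ev f z v ∈ K)
    (hS : S ≤ H) (hx : x ∉ H) (hy : y ∉ H) (hH : ∀ h ∈ H, f.B h x = f.B h y)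
    (hQ : f.Q x = f.Q y) : ∃ g ∈ K, (∀ h ∈ H, g.1 h = h) ∧ g.1 x = y := by
  have hHd : ∀ h ∈ H, f.B h (x - y) = 0 := fun h hh => by rw [B_sub_right, hH h hh, sub_self]
  have o : ∀ {v}, (∀ h ∈ H, f.B h v = 0) → v ∈ f.orth S := fun hv =>
    mem_orth'.2 fun h hh => hv h (hS hh)
  have hd : f.Q (x - y) = f.B x (x - y) := by
    rw [orth_Q_sub, B_sub_right, orth_B_self, ← hQ]; ring
  by_cases h0 : f.Q (x - y) = 0
  swap
  · refine ⟨f.refl _ h0, h1 _ _ (o hHd), fun h hh => f.refl_apply_of_orth _ _ (hHd h hh), ?_⟩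
    rw [refl_apply, ← hd, inv_mul_cancel₀ h0]; simp
  by_cases h3 : x ∈ H ⊔ F ∙ (x - y)
  swap
  · obtain ⟨v, hv1, hv2⟩ := hf.exists_orth_eq_one h3
    have hvd : f.B v (x - y) = 0 :=
      f.B_eq_zero_symm (hv1 _ (Submodule.mem_sup_right (Submodule.mem_span_singleton_self _)))
    refine ⟨Ev f (x - y) v, h2 _ _ h0 hvd (o hHd) (o fun h hh => hv1 h (Submodule.mem_sup_left hh)),
      fun h hh => Ev_fix (hHd h hh) (hv1 h (Submodule.mem_sup_left hh)), ?_⟩
    rw [Ev_orth h0 hvd (hd ▸ h0), hv2]; simp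
  · obtain ⟨h, hh, z, hz, hxz⟩ := Submodule.mem_sup.1 h3
    obtain ⟨a, rfl⟩ := Submodule.mem_span_singleton.1 hz
    have ha : a ≠ 0 := by
      rintro rfl
      apply hx; rw [← hxz]; simpa using hh
    have hy' : y = h + (a - 1) • (x - y) := by
      rw [sub_smul, one_smul, ← add_sub_assoc, hxz]; simp
    have ha1 : a - 1 ≠ 0 := by
      intro h'
      apply hy; rw [hy', h']; simpa using hh
    have hd : x - y ∉ H := by
      intro hd
      apply hx; rw [← hxz]; exact H.add_mem hh (H.smul_mem _ hd)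
    obtain ⟨e, he, heH⟩ := hf.exists_hypPair_orth h0 hd hHd
    have hne : (a - 1) * a⁻¹ ≠ 0 := mul_ne_zero ha1 (inv_ne_zero ha)
    refine ⟨he.hscale _ hne, ?_, fun h hh => he.hscale_of_orth _ _ (hHd h hh) (heH h hh), ?_⟩
    · rw [he.hscale_eq_refl_mul]
      exact mul_mem (h1 _ _ (sub_mem (o hHd) (Submodule.smul_mem _ _ (o heH))))
        (h1 _ _ (sub_mem (o hHd) (Submodule.smul_mem _ _ (o heH))))
    · have e1 : (he.hscale _ hne).1 (h + a • (x - y)) = h + (a - 1) • (x - y) := by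
        rw [map_add, map_smul, he.hscale_u, he.hscale_of_orth _ _ (hHd h hh) (heH h hh), smul_smul]
        congr 2
        field_simp
      rwa [hxz, ← hy'] at e1

theorem rel_gen (hf : f.Nondeg) {S : Submodule F V} {K : Subgroup f.Isom}
    (h1 : ∀ a h, a ∈ f.orth S → f.refl a h ∈ K)
    (h2 : ∀ z v, f.Q z = 0 → f.B v z = 0 → z ∈ f.orth S → v ∈ f.orth S → Ev f z v ∈ K)
    {g : f.Isom} (hg : ∀ w ∈ S, g.1 w = w) : g ∈ K := by
  suffices h : ∀ n, ∀ H : Submodule F V, S ≤ H → finrank F H + n = finrank F V →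
      ∀ g : f.Isom, (∀ w ∈ H, g.1 w = w) → g ∈ K from
    h _ S le_rfl (Nat.add_sub_cancel' S.finrank_le) g hg
  intro n
  induction n with
  | zero =>
    intro H _ h g hg
    rw [show g = 1 from Isom.ext fun w => hg w (Submodule.eq_top_of_finrank_eq h ▸ trivial)]
    exact K.one_mem
  | succ n ih =>
    intro H hS h g hg
    obtain ⟨x, hx⟩ : ∃ x, x ∉ H := by
      by_contra hc
      push Not at hc
      rw [Submodule.eq_top_iff'.2 hc, finrank_top] at h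
      omega
    obtain ⟨k, k1, k2, k3⟩ := rel_step hf h1 h2 hS hx (y := g.1 x)
      (fun h => hx (g.1.injective (hg _ h) ▸ h))
      (fun h hh => by rw [← Isom.map_B g h x, hg h hh]) (Isom.map_Q g x).symm
    rw [← K.mul_mem_cancel_left (inv_mem k1)]
    refine ih (H ⊔ F ∙ x) (hS.trans le_sup_left) ?_ _ fun w hw => ?_
    · rw [Submodule.finrank_sup_span_singleton hx]; omega
    · obtain ⟨a, ha, _, hb, rfl⟩ := Submodule.mem_sup.1 hw
      obtain ⟨t, rfl⟩ := Submodule.mem_span_singleton.1 hb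
      rw [Isom.mul_apply, map_add, map_smul, hg a ha, ← k3, ← map_smul]
      nth_rw 1 [← k2 a ha]
      rw [← map_add, Isom.inv_apply]

end FD

/-- reflection in a hyperbolic plane -/
def rho (h : f.HypPair u e) (a : F) (ha : a ≠ 0) : f.Isom :=
  f.refl (u - a • e) (by rw [h.Q_sub_smul]; simpa)

theorem rho_mul_self (h : f.HypPair u e) (a : F) (ha : a ≠ 0) : rho h a ha * rho h a ha = 1 :=
  f.refl_mul_self _ _

theorem rho_eq (h : f.HypPair u e) (a : F) (ha : a ≠ 0) :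
    rho h a ha = rho h 1 one_ne_zero * h.hscale a ha := by
  rw [h.hscale_eq_refl_mul, ← mul_assoc]
  exact (one_mul _).symm.trans (congrArg (· * _) (rho_mul_self h 1 one_ne_zero).symm)

theorem rho_mul_rho (h : f.HypPair u e) (a b : F) (ha : a ≠ 0) (hb : b ≠ 0) :
    rho h a ha * rho h (a * b) (mul_ne_zero ha hb) = h.hscale b hb := by
  rw [rho_eq h (a * b), ← h.hscale_mul a ha b hb, ← mul_assoc (rho h 1 _), ← rho_eq, ← mul_assoc,
    rho_mul_self, one_mul]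

/-- the dihedral group of a hyperbolic plane -/
def dih (h : f.HypPair u e) : Subgroup f.Isom where
  carrier := {g | ∃ a ha, g = h.hscale a ha ∨ g = rho h a ha}
  one_mem' := ⟨1, one_ne_zero, Or.inl h.hscale_one.symm⟩
  mul_mem' := by
    rintro _ _ ⟨a, ha, rfl | rfl⟩ ⟨b, hb, rfl | rfl⟩
    · exact ⟨_, _, Or.inl (h.hscale_mul a ha b hb)⟩
    · refine ⟨b * a⁻¹, mul_ne_zero hb (inv_ne_zero ha), Or.inr ?_⟩
      rw [← rho_mul_rho h (b * a⁻¹) a (mul_ne_zero hb (inv_ne_zero ha)) ha, mul_assoc]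
      simp only [inv_mul_cancel_right₀ ha]
      rw [rho_mul_self, mul_one]
    · refine ⟨a * b, mul_ne_zero ha hb, Or.inr ?_⟩
      rw [rho_eq, rho_eq h (a * b), mul_assoc, h.hscale_mul]
    · refine ⟨a⁻¹ * b, mul_ne_zero (inv_ne_zero ha) hb, Or.inl ?_⟩
      rw [← rho_mul_rho h a (a⁻¹ * b) ha]
      simp only [mul_inv_cancel_left₀ ha]
  inv_mem' := by
    rintro _ ⟨a, ha, rfl | rfl⟩
    · refine ⟨a⁻¹, inv_ne_zero ha, Or.inl (inv_eq_of_mul_eq_one_right ?_)⟩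
      rw [h.hscale_mul]
      simp only [mul_inv_cancel₀ ha]
      exact h.hscale_one
    · exact ⟨a, ha, Or.inr (inv_eq_of_mul_eq_one_right (rho_mul_self h a ha))⟩

variable [Fintype F] [Finite V]

theorem Ev_mem (hf : f.Nondeg) (h5 : 5 ≤ finrank F V) (x v : V) :
    Ev f x v ∈ commutator f.Isom := by
  by_cases h : f.Q x = 0 ∧ f.B v x = 0
  · rw [Ev_eq h.1 h.2]; exact isE_mem_comm hf h5 h.1 (isE_siegel h.1 h.2)
  · rw [Ev, dif_neg h]; exact one_mem _

theorem hscale_sq_mem (hf : f.Nondeg) (h5 : 5 ≤ finrank F V) (h : f.HypPair u e) {b : F}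
    (hb : b ≠ 0) : h.hscale (b * b) (mul_ne_zero hb hb) ∈ commutator f.Isom := by
  rw [← h.hscale_mul b hb b hb, ← sq]
  exact hf.sq_mem_commutator (Or.inr h5) _

theorem spin_hscale (hf : f.Nondeg) (h2 : (2 : F) ≠ 0) (h : f.HypPair u e) (a : F) (ha : a ≠ 0) :
    hf.spin h2 (h.hscale a ha) = chi F a := by
  rw [h.hscale_eq_refl_mul, map_mul, hf.spin_refl, hf.spin_refl, h.Q_sub_smul, h.Q_sub_smul,
    ← map_mul]
  simp

theorem fix_mem (hf : f.Nondeg) (h5 : 5 ≤ finrank F V) {S : Submodule F V} (hS : f.TotSing S)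
    (h : f.HypPair u e) (hu : u ∈ f.orth S) (he : e ∈ f.orth S) (hw : w ∈ f.orth S)
    (w1 : f.B w u = 0) (w2 : f.B w e = 0) (w3 : f.Q w ≠ 0) {K : Subgroup f.Isom}
    (hK : ∀ z v, f.Q z = 0 → f.B v z = 0 → z ∈ f.orth S → v ∈ f.orth S → Ev f z v ∈ K)
    {g : f.Isom} (hg : g ∈ commutator f.Isom) (hg' : ∀ w ∈ S, g.1 w = w) : g ∈ K := by
  let N := Subgroup.closure {g | ∃ z v, f.Q z = 0 ∧ f.B v z = 0 ∧ z ∈ f.orth S ∧ v ∈ f.orth S ∧
    g = Ev f z v}
  have hN : ∀ {z v}, f.Q z = 0 → f.B v z = 0 → z ∈ f.orth S → v ∈ f.orth S → Ev f z v ∈ N :=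
    fun a b c d => Subgroup.subset_closure ⟨_, _, a, b, c, d, rfl⟩
  have n1 : ∀ t : f.Isom, (∀ w ∈ S, t.1 w = w) → ∀ k ∈ N, t * k * t⁻¹ ∈ N := fun t ht k hk => by
    have o : ∀ {v}, v ∈ f.orth S → t.1 v ∈ f.orth S := fun hv w hw => by
      rw [← ht w hw, Isom.map_B]; exact hv w hw
    induction hk using Subgroup.closure_induction with
    | mem _ h =>
      obtain ⟨z, v, a, b, c, d, rfl⟩ := h
      rw [Ev_conj]
      exact hN (by rwa [Isom.map_Q]) (by rwa [Isom.map_B]) (o c) (o d)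
    | one => simp
    | mul a b _ _ ha hb => simpa [mul_assoc] using mul_mem ha hb
    | inv a _ ha => simpa [mul_assoc] using inv_mem ha
  have d1 : ∀ t ∈ dih h, ∀ w ∈ S, t.1 w = w := by
    rintro _ ⟨a, ha, rfl | rfl⟩ w hw
    · exact h.hscale_of_orth _ _ (mem_orth'.1 hu w hw) (mem_orth'.1 he w hw)
    · exact f.refl_apply_of_orth _ _ (mem_orth'.1 (sub_mem hu (Submodule.smul_mem _ _ he)) w hw)
  have r1 : ∀ {u e}, f.HypPair u e → u ∈ f.orth S → e ∈ f.orth S → ∀ b ∈ f.orth S,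
      f.B b u ≠ 0 → ∃ k ∈ N, k.1 b = (f.Q b / f.B b u) • u + f.B b u • e :=
    fun {u e} h hu he b hb h0 => ⟨_, hN h.Qu (by simp [h.Buu, h.Beu]) hu (Submodule.smul_mem _ _
      (sub_mem (add_mem (Submodule.smul_mem _ _ hu) (Submodule.smul_mem _ _ he)) hb)),
      Ev_map h.Qu (by
        rw [orth_Q_add, orth_Q_smul, orth_Q_smul, h.Qu, h.Qe]; simp [h.Bue]; field_simp)
        (by simp [h.Buu, h.Beu]) h0⟩
  have r2 : ∀ {b} (hb : f.Q b ≠ 0) {k : f.Isom} {s t : F} (hs : s ≠ 0) (ht : t ≠ 0),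
      k.1 b = s • u + t • e → k * f.refl b hb * k⁻¹ = rho h (-t / s) (by simp [hs, ht]) :=
    fun hb k s t hs ht hk => by
      rw [refl_conj, rho, ← f.refl_smul (u - _) _ s hs]
      exact f.refl_congr _ (by rw [hk]; match_scalars <;> field_simp)
  have r3 : ∀ b ∈ f.orth S, f.Q b ≠ 0 → ∃ k ∈ N, ∃ s t : F, s ≠ 0 ∧ t ≠ 0 ∧
      k.1 b = s • u + t • e := fun b hb h0 => by
    have a1 : ∀ b ∈ f.orth S, f.Q b ≠ 0 → f.B b e ≠ 0 → ∃ k ∈ N, ∃ s t : F, s ≠ 0 ∧ t ≠ 0 ∧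
        k.1 b = s • u + t • e := fun b hb h0 h1 =>
      let ⟨k, k1, k2⟩ := r1 (hyp_swap h) he hu b hb h1
      ⟨k, k1, _, _, h1, div_ne_zero h0 h1, k2.trans (add_comm _ _)⟩
    by_cases h1 : f.B b u = 0
    swap
    · obtain ⟨k, k1, k2⟩ := r1 h hu he b hb h1
      exact ⟨k, k1, _, _, div_ne_zero h0 h1, h1, k2⟩
    by_cases h2 : f.B b e = 0
    swap
    · exact a1 b hb h0 h2
    obtain ⟨v, v1, v2⟩ := hf.exists_orth_eq_one (S := S ⊔ F ∙ u) (x := b) fun hc => by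
      obtain ⟨a, ha, _, hd, rfl⟩ := Submodule.mem_sup.1 hc
      obtain ⟨t, rfl⟩ := Submodule.mem_span_singleton.1 hd
      exact h0 (by rw [orth_Q_add, orth_Q_smul, hS.1 a ha, h.Qu]; simp [mem_orth'.1 hu a ha])
    have v3 := f.B_eq_zero_symm (v1 u (Submodule.mem_sup_right (Submodule.mem_span_singleton_self _)))
    have v4 := Ev_orth h.Qu v3 h1
    obtain ⟨k, k1, s, t, hs, ht, k2⟩ := a1 ((Ev f u v).1 b)
      (v4 ▸ sub_mem hb (Submodule.smul_mem _ _ hu)) (by rwa [Isom.map_Q])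
      (by simp [v4, v2, h2, h.Bue])
    exact ⟨k * Ev f u v, mul_mem k1 (hN h.Qu v3 hu (mem_orth'.2 fun w hw =>
      v1 w (Submodule.mem_sup_left hw))), s, t, hs, ht, k2⟩
  have n2 : g ∈ N ⊔ dih h := rel_gen hf (fun a ha hb => by
    obtain ⟨k, k1, s, t, hs, ht, k2⟩ := r3 a hb ha
    rw [← Subgroup.mul_mem_cancel_left _ (Subgroup.mem_sup_left k1),
      ← Subgroup.mul_mem_cancel_right _ (Subgroup.mem_sup_left (inv_mem k1)), r2 ha hs ht k2]
    exact Subgroup.mem_sup_right ⟨_, _, Or.inr rfl⟩)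
    (fun z v a b c d => Subgroup.mem_sup_left (hN a b c d)) hg'
  have n3 : N ≤ commutator f.Isom := (Subgroup.closure_le _).2 (by
    rintro _ ⟨z, v, -, -, -, -, rfl⟩; exact Ev_mem hf h5 z v)
  have n4 : ∀ b (hb : b ≠ 0), h.hscale (b * b) (mul_ne_zero hb hb) ∈ N := fun b hb => by
    by_cases h1 : b = 1
    · simp only [h1, mul_one]; rw [h.hscale_one]; exact one_mem _
    have h2 := sub_ne_zero.2 h1
    obtain ⟨c, hc⟩ : ∃ c, c = f.Q w / (b - 1) := ⟨_, rfl⟩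
    have c0 : c ≠ 0 := hc ▸ div_ne_zero w3 h2
    have c1 : f.Q w = c * (b - 1) := by rw [hc]; field_simp
    have e1 : (Ev f e w).1 (u - c • e) = u - (c * b) • e + w := by
      rw [Ev_apply h.Qe w2, c1]
      simp [h.Bue, h.Bee, f.B_eq_zero_symm w1, f.B_eq_zero_symm w2]; module
    have e2 : f.B (u - (c * b) • e + w) u = -(c * b) := by simp [h.Buu, h.Beu, w1]
    obtain ⟨k, k1, k2⟩ := r1 h hu he (u - (c * b) • e + w)
      (add_mem (sub_mem hu (Submodule.smul_mem _ _ he)) hw) (by rw [e2]; simp [c0, hb])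
    rw [e2, ← e1, Isom.map_Q, h.Q_sub_smul, ← Isom.mul_apply] at k2
    have k3 := mul_mem k1 (hN h.Qe w2 he hw)
    have := r2 (by rw [h.Q_sub_smul]; simpa) (by simp [c0, hb]) (by simp [c0, hb]) k2
    simp only [show - -(c * b) / (-c / -(c * b)) = c * (b * b) by field_simp] at this
    rw [← rho_mul_rho h c _ c0, ← this, ← mul_assoc, ← mul_assoc]
    refine mul_mem ?_ (inv_mem k3)
    have := n1 (rho h c c0) (d1 _ ⟨c, c0, Or.inr rfl⟩) _ k3
    rwa [inv_eq_of_mul_eq_one_right (rho_mul_self h c c0)] at this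
  refine (show N ≤ K from (Subgroup.closure_le K).2 (by
    rintro _ ⟨z, v, a, b, c, d, rfl⟩; exact hK z v a b c d)) ?_
  rw [← SetLike.mem_coe, Subgroup.coe_mul_of_right_le_normalizer_left _ _ fun t ht =>
    Subgroup.mem_normalizer_iff.2 fun k => ⟨n1 t (d1 t ht) k, fun hk => by
      simpa [mul_assoc] using n1 t⁻¹ (d1 _ (inv_mem ht)) _ hk⟩] at n2
  obtain ⟨k, k1, _, ⟨a, ha, rfl | rfl⟩, rfl⟩ := n2 <;>
    rw [Subgroup.mul_mem_cancel_left _ (n3 k1)] at hg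
  · refine mul_mem k1 ?_
    obtain ⟨b, rfl⟩ : IsSquare a := by
      by_cases h2 : (2 : F) = 0
      · exact (exists_mul_self h2 a).imp fun _ => Eq.symm
      · exact (chi_eq_one_iff ha).1 (spin_hscale hf h2 h a ha ▸ ((hf.mem_commutator_iff h2 _).1 hg).2)
    exact n4 b (left_ne_zero_of_mul ha)
  · have := (hf.dickson_eq_one_iff (Or.inr h5) _).2 (hf.even_res_of_mem_commutator (Or.inr h5) hg)
    rw [rho, hf.dickson_refl] at this
    exact absurd this (by decide)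

theorem finrank_comap_le (S T : Submodule F V) :
    finrank F (S.comap T.subtype) ≤ finrank F S := by
  rw [← Submodule.finrank_map_subtype_eq]
  exact Submodule.finrank_mono (Submodule.map_comap_le _ _)

theorem orth_of_restrict {S T : Submodule F V} (hS : S ≤ T) {x : T}
    (hx : x ∈ (f.restrict T).orth (S.comap T.subtype)) : x.1 ∈ f.orth S :=
  fun w hw => hx ⟨w, hS hw⟩ hw

theorem exists_Q_perp_hyp (hf : f.Nondeg) (h : f.HypPair u e) {S : Submodule F V}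
    (hS : S ≤ f.orth (Submodule.span F {u, e})) (hd : 2 * finrank F S + 4 ≤ finrank F V) (c : F) :
    ∃ x ∈ f.orth S, f.B x u = 0 ∧ f.B x e = 0 ∧ f.Q x = c := by
  obtain ⟨x, h1, h2⟩ := exists_Q_perp (h.restrict_orth_nondeg hf) (S.comap (Submodule.subtype _))
    (by have := h.finrank_orth hf
        have := finrank_comap_le S (f.orth (Submodule.span F {u, e})); omega) c
  exact ⟨x, orth_of_restrict hS h1, (mem_orth_pair.1 x.2).1, (mem_orth_pair.1 x.2).2, h2⟩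

theorem exists_hyp_perp_hyp (hf : f.Nondeg) (h : f.HypPair u e) {S : Submodule F V}
    (hS : S ≤ f.orth (Submodule.span F {u, e})) (hd : 2 * finrank F S + 5 ≤ finrank F V) :
    ∃ x ∈ f.orth S, ∃ y ∈ f.orth S, f.HypPair x y ∧ f.B x u = 0 ∧ f.B x e = 0 ∧ f.B y u = 0 ∧
      f.B y e = 0 := by
  obtain ⟨x, h1, y, h2, h3⟩ := exists_hyp_orth (h.restrict_orth_nondeg hf)
    (S.comap (Submodule.subtype _)) (by
      have := h.finrank_orth hf
      have := finrank_comap_le S (f.orth (Submodule.span F {u, e})); omega)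
  exact ⟨x, orth_of_restrict hS h1, y, orth_of_restrict hS h2, ⟨h3.Qu, h3.Qe, h3.Bue⟩,
    (mem_orth_pair.1 x.2).1, (mem_orth_pair.1 x.2).2, (mem_orth_pair.1 y.2).1,
    (mem_orth_pair.1 y.2).2⟩

omit [Fintype F] [Finite V] in
theorem li_pair (hx : x ≠ 0) (hy : y ∉ F ∙ x) : LinearIndependent F ![x, y] :=
  (LinearIndependent.pair_iff' hx).2 fun s e => hy (Submodule.mem_span_singleton.2 ⟨s, e⟩)

omit [Fintype F] [Finite V] in
theorem li_triple (hx : x ≠ 0) (hy : y ∉ F ∙ x) (hz : z ∉ Submodule.span F {x, y}) :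
    LinearIndependent F ![z, x, y] :=
  (linearIndependent_finCons (x := z) (v := ![x, y])).2 ⟨li_pair hx hy, by
    rwa [Matrix.range_cons_cons_empty]⟩

theorem om_two (hf : f.Nondeg) (h6 : 6 ≤ finrank F V) {x' y' : V} (hx : x ≠ 0) (hy : y ∉ F ∙ x)
    (hx' : x' ≠ 0) (hy' : y' ∉ F ∙ x') (h1 : f.Q x = f.Q x') (h2 : f.Q y = f.Q y')
    (h3 : f.B x y = f.B x' y') : ∃ g ∈ commutator f.Isom, g.1 x = x' ∧ g.1 y = y' := by
  obtain ⟨g, e1, e2⟩ := hf.witt_two (li_pair hx hy) (li_pair hx' hy')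
    (by rw [orth_B_self, orth_B_self, h1]) (by rw [orth_B_self, orth_B_self, h2]) h3 h1 h2
  obtain ⟨g', h2, h3⟩ := exists_om_fix' hf (by omega) (S := Submodule.span F {x, y})
    (by have := finrank_span_pair_le (F := F) x y; omega) g
  exact ⟨g', h2, by rw [h3 x (Submodule.subset_span (by simp)), e1],
    by rw [h3 y (Submodule.subset_span (by simp)), e2]⟩

omit [Fintype F] [Finite V] in
theorem not_mem_pair_of_B (h1 : f.B x w = 0) (h2 : f.B y w = 0) (h3 : f.B z w ≠ 0) :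
    z ∉ Submodule.span F {x, y} := fun h => by
  obtain ⟨a, b, rfl⟩ := Submodule.mem_span_pair.1 h
  simp [h1, h2] at h3

omit [Fintype F] [Finite V] in
theorem li_hyp (h : f.HypPair u e) (hy : y ≠ 0) (h1 : f.B y u = 0) (h2 : f.B y e = 0) :
    LinearIndependent F ![e, y, u] :=
  li_triple hy (not_mem_span_of_B h2 (by simp [h.Bue]))
    (not_mem_pair_of_B h1 h.Buu (by simp [h.Beu]))

theorem om_hyp (hf : f.Nondeg) (h6 : 6 ≤ finrank F V) {u' e' y' : V} (h : f.HypPair u e)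
    (h' : f.HypPair u' e') (hy : y ≠ 0) (hy' : y' ≠ 0) (h1 : f.B y u = 0) (h2 : f.B y e = 0)
    (h1' : f.B y' u' = 0) (h2' : f.B y' e' = 0) (h3 : f.Q y = f.Q y') :
    ∃ g ∈ commutator f.Isom, g.1 u = u' ∧ g.1 e = e' ∧ g.1 y = y' := by
  obtain ⟨g, hg⟩ := hf.witt_family (li_hyp h hy h1 h2) (li_hyp h' hy' h1' h2') (by
    intro i j
    fin_cases i <;> fin_cases j <;> simp [h.Buu, h.Bee, h.Bue, h.Beu, h'.Buu, h'.Bee, h'.Bue,
      h'.Beu, h1, h2, h1', h2', f.B_eq_zero_symm h1, f.B_eq_zero_symm h2, f.B_eq_zero_symm h1',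
      f.B_eq_zero_symm h2', orth_B_self, h3, h.Qu, h.Qe, h'.Qu, h'.Qe])
    (by intro i; fin_cases i <;> simp [h.Qu, h.Qe, h'.Qu, h'.Qe, h3])
  obtain ⟨g', g1, g2⟩ := exists_om_fix hf (by omega) (S := Submodule.span F {u, e, y}) (fun a ha =>
    let ⟨x, x1, x2, x3, x4⟩ := exists_Q_perp_hyp hf h (S := F ∙ y)
      ((Submodule.span_singleton_le_iff_mem _ _).2 (mem_orth_pair.2 ⟨h1, h2⟩))
      (by rw [finrank_span_singleton hy]; omega) (f.Q a)
    ⟨x, mem_orth_triple.2 ⟨x2, x3, mem_orth_singleton.1 x1⟩, x4 ▸ ha, _, by rw [x4]⟩) g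
  exact ⟨g', g1, (g2 u (Submodule.subset_span (by simp))).trans (hg 2),
    (g2 e (Submodule.subset_span (by simp))).trans (hg 0),
    (g2 y (Submodule.subset_span (by simp))).trans (hg 1)⟩

variable (f) in
/-- a basis of a totally singular plane -/
structure Tri (x y z : V) : Prop where
  x0 : x ≠ 0
  y0 : y ∉ F ∙ x
  z0 : z ∉ Submodule.span F {x, y}
  qx : f.Q x = 0
  qy : f.Q y = 0
  qz : f.Q z = 0
  yx : f.B y x = 0
  zx : f.B z x = 0
  zy : f.B z y = 0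

theorem finrank_triple_le (x y z : V) : finrank F (Submodule.span F {x, y, z}) ≤ 3 := by
  have := finrank_range_le_card (R := F) ![x, y, z]
  rwa [show Set.range ![x, y, z] = {x, y, z} by
    simp only [Matrix.range_cons, Matrix.range_empty, Set.union_empty, Set.singleton_union]] at this

theorem Tri.exists_scal (hf : f.Nondeg) (h : Tri f x y z) (h2 : (2 : F) ≠ 0) {s : F} (hs : s ≠ 0) :
    ∃ t : f.Isom, t.1 x = s • x ∧ t.1 y = s • y ∧ t.1 z = s • z ∧ f.detHom t = 1 ∧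
      hf.spin h2 t = chi F s := by
  have hz : ∀ {x y z : V}, z ∉ Submodule.span F {x, y} → f.Q z = 0 → f.B x z = 0 → f.B y z = 0 →
      ∃ t : f.Isom, t.1 x = x ∧ t.1 y = y ∧ t.1 z = s • z ∧ f.detHom t = 1 ∧
        hf.spin h2 t = chi F s := fun {x y z} h0 h1 h3 h4 => by
    obtain ⟨e, he, h5⟩ := hf.exists_hypPair_orth h1 h0
      (mem_orth'.1 (mem_orth_pair.2 ⟨f.B_eq_zero_symm h3, f.B_eq_zero_symm h4⟩))
    refine ⟨he.hscale s hs, he.hscale_of_orth _ _ h3 (h5 _ (Submodule.subset_span (by simp))),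
      he.hscale_of_orth _ _ h4 (h5 _ (Submodule.subset_span (by simp))), he.hscale_u _ _, ?_,
      spin_hscale hf h2 he s hs⟩
    rw [he.hscale_eq_refl_mul, map_mul, detHom_refl, detHom_refl]; simp
  have li := li_triple h.x0 h.y0 h.z0
  obtain ⟨t1, a1, a2, a3, a4, a5⟩ := hz h.z0 h.qz (f.B_eq_zero_symm h.zx) (f.B_eq_zero_symm h.zy)
  obtain ⟨t2, b1, b2, b3, b4, b5⟩ := hz (x := z) (y := x) (z := y)
    (by simpa [Set.image_insert_eq] using li.notMem_span_image (s := {0, 1}) (x := 2) (by simp))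
    h.qy h.zy (f.B_eq_zero_symm h.yx)
  obtain ⟨t3, c1, c2, c3, c4, c5⟩ := hz (x := z) (y := y) (z := x)
    (by simpa [Set.image_insert_eq] using li.notMem_span_image (s := {0, 2}) (x := 1) (by simp))
    h.qx h.zx h.yx
  exact ⟨t1 * t2 * t3, by simp [Isom.mul_apply, *], by simp [Isom.mul_apply, *],
    by simp [Isom.mul_apply, *], by simp [*], by simp [a5, b5, c5, chi_mul_self hs]⟩

theorem om_tri (hf : f.Nondeg) (h7 : 7 ≤ finrank F V) {x' y' z' : V} (h : Tri f x y z)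
    (h' : Tri f x' y' z') : ∃ g ∈ commutator f.Isom, ∃ s : F, s ≠ 0 ∧ g.1 x = s • x' ∧
      g.1 y = s • y' ∧ g.1 z = s • z' := by
  obtain ⟨g, hg⟩ := hf.witt_family (li_triple h.x0 h.y0 h.z0) (li_triple h'.x0 h'.y0 h'.z0) (by
    intro i j
    fin_cases i <;> fin_cases j <;> simp [orth_B_self, h.qx, h.qy, h.qz, h'.qx, h'.qy, h'.qz,
      h.yx, h.zx, h.zy, h'.yx, h'.zx, h'.zy, f.B_eq_zero_symm h.yx, f.B_eq_zero_symm h.zx,
      f.B_eq_zero_symm h.zy, f.B_eq_zero_symm h'.yx, f.B_eq_zero_symm h'.zx,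
      f.B_eq_zero_symm h'.zy])
    (by intro i; fin_cases i <;> simp [h.qx, h.qy, h.qz, h'.qx, h'.qy, h'.qz])
  have g0 : g.1 z = z' := hg 0
  have g1 : g.1 x = x' := hg 1
  have g2 : g.1 y = y' := hg 2
  obtain ⟨d, d1, d2⟩ := hf.exists_nonsingular_orth (Submodule.span F {x, y, z})
    (by have := finrank_triple_le (F := F) x y z; omega)
  by_cases h2 : (2 : F) = 0
  · obtain ⟨g', a1, a2⟩ := exists_om_fix hf (by omega) (S := Submodule.span F {x, y, z})
      (fun a ha => ⟨d, d1, d2, (exists_mul_self h2 _).imp fun _ => Eq.symm⟩) g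
    refine ⟨g', a1, 1, one_ne_zero, ?_, ?_, ?_⟩ <;>
      rw [a2 _ (Submodule.subset_span (by simp)), one_smul] <;> assumption
  obtain ⟨d3, d4, d5⟩ := mem_orth_triple.1 d1
  obtain ⟨k, k0, k1, k2, k3⟩ : ∃ k : f.Isom, f.detHom k = 1 ∧ k.1 x = x' ∧ k.1 y = y' ∧
      k.1 z = z' := hf.refl_ind h2 (p := fun k => (∃ k' : f.Isom, f.detHom k' = f.detHom k ∧
        k'.1 x = x' ∧ k'.1 y = y' ∧ k'.1 z = z') → ∃ k : f.Isom, f.detHom k = 1 ∧ k.1 x = x' ∧
        k.1 y = y' ∧ k.1 z = z') (by simp) (fun k a ha ih ⟨k', e0, e1, e2, e3⟩ => ih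
          ⟨k' * f.refl d d2, by simp [e0, detHom_refl], by
            simp [Isom.mul_apply, f.refl_apply_of_orth d d2, f.B_eq_zero_symm, *]⟩) g
      ⟨g, rfl, g1, g2, g0⟩
  obtain ⟨s, hs, s1⟩ := exists_chi_eq h2 (hf.spin_mul_self h2 k)
  obtain ⟨t, t1, t2, t3, t4, t5⟩ := h.exists_scal hf h2 hs
  exact ⟨k * t, (hf.mem_commutator_iff h2 _).2 ⟨by simp [k0, t4],
    by rw [map_mul, t5, s1, hf.spin_mul_self]⟩, s, hs, by simp [Isom.mul_apply, *]⟩

end Cfsg.Agent.OD
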