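import Cfsg.Agent.Lib.OD.Frame

/-!
Minimal degrees of complex representations of `Ω`.
-/

set_option autoImplicit false

namespace Cfsg.Agent.OD

open Module Cfsg.Agent.Forms Cfsg.Agent.Forms.Form Cfsg.Agent.MI Cfsg.Agent.Deg Finset
open scoped InnerProductSpace ComplexConjugate

universe u v

variable {F : Type*} [Field F] {V : Type u} [AddCommGroup V] [Module F V]
  {f : Form (Param.orth F) V} {W : Type v} [NormedAddCommGroup W] [InnerProductSpace ℂ W]
  {R : f.Isom → End ℂ W} {ψ : AddChar F ℂ} {x y z e μ : V} {g : f.Isom} {w : W}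
  [Fintype F] [Fintype V] {k n : ℕ}

omit [Fintype F] [Fintype V] in
theorem Ev_zero_left (v : V) : Ev f 0 v = 1 := by
  rw [← zero_smul F (0 : V), Ev_smul_left f.Q_zero (by simp), zero_smul, Ev_zero]

open Classical in
theorem card_perp_restrict (h : f.HypPair x e) (c : F) :
    (univ.filter fun v => f.B v x = 0 ∧ f.Q v = c).card = Fintype.card F *
      Nat.card {v // (f.restrict (f.orth (Submodule.span F {x, e}))).Q v = c} := by
  rw [Nat.card_eq_fintype_card, ← Fintype.card_prod, ← card_univ]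
  refine (card_bij (fun p _ => p.2.1.1 + p.1 • x) (fun p _ => ?_) (fun p _ p' _ h1 => ?_)
    fun v hv => ?_).symm
  · have := (mem_orth_pair.1 p.2.1.2).1
    simp [this, h.Buu, orth_Q_add, orth_Q_smul, h.Qu, show f.Q p.2.1.1 = c from p.2.2]
  · have h2 : p.1 = p'.1 := by
      simpa [(mem_orth_pair.1 p.2.1.2).2, (mem_orth_pair.1 p'.2.1.2).2, h.Bue] using
        congrArg (f.B · e) h1
    exact Prod.ext h2 (Subtype.ext (Subtype.ext (by simpa [h2] using h1)))
  · obtain ⟨h1, h2⟩ := (mem_filter.1 hv).2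
    exact ⟨(f.B v e, ⟨⟨v - f.B v e • x, mem_orth_pair.2 (by simp [h1, h.Buu, h.Bue])⟩,
      by simp [orth_Q_sub, orth_Q_smul, h.Qu, h1, h2]⟩), mem_univ _, by simp⟩

namespace UR

variable (H : UR f R ψ)
include H

theorem restrict (h : f.HypPair x e) (h7 : 7 ≤ finrank F V) :
    ∃ R' : (f.restrict (f.orth (Submodule.span F {x, e}))).Isom → End ℂ (Wt R ψ x 0),
      UR _ R' ψ ∧ ∀ z v u, (R' (Ev _ z v) u : W) = R (Ev f z v) u := by
  classical
  have hf' := h.restrict_orth_nondeg H.nd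
  have hd := h.finrank_orth H.nd
  set U := f.orth (Submodule.span F {x, e})
  let j := H.nd.extHom hf' U.subtype (isIsom_subtype f U)
  have j1 : ∀ {g}, g ∈ commutator _ → j g ∈ commutator f.Isom := fun hg =>
    Subgroup.commutator_mono le_top le_top
      (Subgroup.map_commutator ⊤ ⊤ j ▸ Subgroup.mem_map_of_mem j hg)
  have j2 : ∀ g, ∀ w ∈ f.orth U, (j g).1 w = w := fun g w hw =>
    H.nd.extHom_apply_right _ _ _ _ (by rwa [Submodule.range_subtype])
  have j3 : ∀ z v, j (Ev _ z v) = Ev f z v := fun z v => by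
    by_cases h1 : f.Q z = 0 ∧ f.B v z = 0
    · refine Isom.ext fun w => ?_
      obtain ⟨a, b, hb, rfl⟩ := H.nd.exists_decomp_range (φ := U.subtype) hf' w
      rw [Submodule.range_subtype] at hb
      rw [map_add, map_add, j2 _ b hb, Ev_fix (hb _ z.2) (hb _ v.2), H.nd.extHom_apply_left,
        Ev_apply (f := f.restrict U) h1.1 h1.2, Ev_apply h1.1 h1.2]
      simp
    · rw [Ev, Ev, dif_neg h1, dif_neg (by exact h1), map_one]
  have j4 : ∀ {g}, g ∈ commutator _ → ∀ w ∈ Wt R ψ x 0, R (j g) w ∈ Wt R ψ x 0 := fun hg w hw => by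
    have := H.Wt_map (j1 hg) hw
    rwa [map_zero, j2 _ x (f.le_orth_orth _ (Submodule.subset_span (by simp)))] at this
  have := Fintype.ofFinite U
  refine ⟨fun g => if hg : g ∈ commutator _ then (R (j g)).restrict (j4 hg) else 1,
    ⟨hf', by omega, H.ψ1, ?_, fun ha hb => ?_, fun hg v w => ?_⟩, fun z v u => ?_⟩
  · ext w; simp [H.one]
  · ext w; simp [ha, hb, mul_mem ha hb, H.mul (j1 ha) (j1 hb)]
  · simp [hg, H.inner (j1 hg), Submodule.coe_inner]
  · simp [Ev_mem hf' (by omega) z v, j3]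

theorem ne_zero_of_Wt (hμ : μ ≠ 0) (hw : w ∈ Wt R ψ 0 μ) : w = 0 := by
  obtain ⟨v, hv⟩ := H.nd.exists_ne_zero hμ
  obtain ⟨t, ht⟩ := exists_psi_ne H.ψ1 hv
  have := mem_Wt.1 hw (t • v) (by simp)
  rw [Ev_zero_left, H.one, B_smul_left, orth_symm, End.one_apply, eq_comm, ← sub_eq_zero] at this
  exact (smul_eq_zero_iff_right (sub_ne_zero.2 ht)).1 (by rwa [sub_smul, one_smul])

theorem exists_wt (h : ∃ g ∈ commutator f.Isom, R g ≠ 1) : ∃ x μ, f.Q x = 0 ∧ x ≠ 0 ∧
    μ ∉ F ∙ x ∧ ∃ w ∈ Wt R ψ x μ, w ≠ 0 := by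
  by_contra hc
  push Not at hc
  obtain ⟨g, hg, h⟩ := h
  refine h (LinearMap.ext fun w => (orth_gen H.nd H.h5 (H.stab w) (fun u v l hu hv hl => ?_) hg).2)
  rw [eichler_eq_siegel, ← Ev_eq]
  refine ⟨H.E _ _, ?_⟩
  by_cases h0 : u = 0
  · rw [h0, Ev_zero_left, H.one, End.one_apply]
  refine smul_right_injective W (Nat.cast_ne_zero (R := ℂ).2 (Fintype.card_ne_zero (α := F))) ?_
  beta_reduce
  rw [← map_smul, ← H.sum_Pw h0, map_sum]
  refine sum_congr rfl fun μ _ => ?_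
  by_cases h1 : μ ∈ F ∙ u
  · rw [mem_Wt.1 (H.Pw_mem hu μ w) v hv, mem_orth_singleton.2 hv μ h1]; simp
  · rw [hc u μ hu h0 h1 _ (H.Pw_mem hu μ w), map_zero]

variable [FiniteDimensional ℂ W]

theorem sum_le (hx : f.Q x = 0) (hx0 : x ≠ 0) {m : V → ℕ}
    (h : ∀ μ, m μ ≤ finrank ℂ (Wt R ψ x μ)) : ∑ μ, m μ ≤ Fintype.card F * finrank ℂ W :=
  H.sum_finrank hx hx0 ▸ sum_le_sum fun μ _ => h μ

omit H [Fintype F] [Fintype V] in
theorem one_le (hw : w ∈ Wt R ψ x μ) (h0 : w ≠ 0) : 1 ≤ finrank ℂ (Wt R ψ x μ) :=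
  finrank_pos_iff.2 ⟨⟨w, hw⟩, 0, by simpa⟩

theorem finrank_pr (h6 : 6 ≤ finrank F V) {x' y' : V} (h : Pr f x y) (h' : Pr f x' y') :
    finrank ℂ (Wt R ψ x' y') = finrank ℂ (Wt R ψ x y) := by
  obtain ⟨g, hg, rfl, rfl⟩ := h.om H.nd h6 h'
  exact H.finrank_Wt_map hg _ _

open Classical in
theorem card_pr (N : Num f k n) (hx : f.Q x = 0) (hx0 : x ≠ 0) :
    (univ.filter (Pr f x)).card + Fintype.card F = n := by
  have h1 := sum_perp_split hx hx0 (fun _ => 1)
  simp only [sum_const, N.card_Pp hx hx0, card_univ, nsmul_eq_mul, mul_one] at h1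
  exact_mod_cast (add_comm _ _).trans h1.symm

theorem main (N : Num f k n) (h7 : 7 ≤ finrank F V)
    (hq : 4 ≤ Nat.card F ∨ 9 ≤ finrank F V ∨ ∀ M, f.TotSing M → finrank F M ≤ 3)
    (h : ∃ g ∈ commutator f.Isom, R g ≠ 1) :
    (∃ z μ, f.Q z = 0 ∧ z ≠ 0 ∧ f.B μ z = 0 ∧ f.Q μ ≠ 0 ∧ ∃ w ∈ Wt R ψ z μ, w ≠ 0) ∨
      2 * n ≤ Fintype.card F * (finrank ℂ W + 2) ∨ ∃ ζ χ, Fr R ψ ζ χ := by
  classical
  by_cases hn : ∀ z μ, f.Q z = 0 → f.Q μ ≠ 0 → ∀ w ∈ Wt R ψ z μ, w = 0
  swap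
  · push Not at hn
    obtain ⟨z, μ, h1, h2, w, h3, h4⟩ := hn
    exact Or.inl ⟨z, μ, h1, by
      rintro rfl; exact h4 (H.ne_zero_of_Wt (by rintro rfl; exact h2 f.Q_zero) h3),
      by_contra fun h => h4 (H.Wt_eq_zero h1 h h3), h2, w, h3, h4⟩
  obtain ⟨x, y, h1, h2, h3, w, h4, h5⟩ := H.exists_wt h
  have p : Pr f x y := ⟨h2, h3, h1, by_contra fun h => h5 (hn _ _ h1 h _ h4),
    by_contra fun h => h5 (H.Wt_eq_zero h1 h h4)⟩
  refine Or.inr ((one_le h4 h5).eq_or_lt.symm.imp (fun h => ?_) fun h => ?_)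
  · have := H.sum_le h1 h2 (m := fun μ => if Pr f x μ then 2 else 0) fun μ => by
      split_ifs with h6
      · rwa [H.finrank_pr (by omega) p h6]
      · exact Nat.zero_le _
    rw [← sum_filter, sum_const, smul_eq_mul] at this
    have := H.card_pr N h1 h2
    nlinarith
  · obtain ⟨ω, A⟩ := H.exists_fam h7 hq hn p h.symm
    obtain ⟨z, z0, z1, z2⟩ := A.exists_fix p
    exact H.exists_fr h7 hn h1 h2 z0 z1 z2

open Classical in
theorem ns_le (h6 : 6 ≤ finrank F V) (hz : f.Q z = 0) (hz0 : z ≠ 0) (h1 : f.B μ z = 0)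
    (h2 : f.Q μ ≠ 0) (hw : w ∈ Wt R ψ z μ) (h0 : w ≠ 0) :
    (Fintype.card F - 1) * (univ.filter fun v => f.B v z = 0 ∧ f.Q v = f.Q μ).card ≤
      2 * (Fintype.card F * finrank ℂ W) := by
  have h3 := card_Cq_ge hz h2
  have h4 := H.sum_le hz hz0 (m := fun v => if v ∈ Cq f z μ then 1 else 0) fun v => by
    split_ifs with h
    · obtain ⟨a, b, c, hc, d⟩ := h
      obtain ⟨g, hg, g1, g2⟩ := om_class H.nd h6 hz hz0 h1 a (not_mem_span_of_Q hz h2) b hc d
      rw [← Wt_smul hz hc, ← g1, ← g2, H.finrank_Wt_map hg]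
      exact one_le hw h0
    · exact Nat.zero_le _
  rw [← sum_filter, sum_const, smul_eq_mul, mul_one, ← Set.ncard_coe_finset] at h4
  rw [Nat.card_eq_fintype_card] at h3
  rw [← Set.ncard_coe_finset]
  exact le_trans (by simpa using h3) (Nat.mul_le_mul_left 2 (by simpa using h4))

theorem exists_Pw_zero (h9 : 9 ≤ finrank F V) (hz : f.Q z = 0) (hz0 : z ≠ 0) (h1 : f.B μ z = 0)
    (h2 : f.Q μ ≠ 0) (hw : w ∈ Wt R ψ z μ) (h0 : w ≠ 0) (hm : finrank ℂ (Wt R ψ z μ) = 1)
    (hs : ∀ x y, Pr f x y → ∀ w ∈ Wt R ψ x y, w = 0) (h : f.HypPair x e) (a1 : f.B x z = 0)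
    (a2 : f.B x μ = 0) (a3 : f.B e z = 0) : Pw R ψ x 0 w ≠ 0 := fun hc => by
  classical
  have s := @B_eq_zero_symm _ _ _ _ _ _ f
  have p : Pr f x z := ⟨h.u_ne_zero, not_mem_span_symm hz0
    (not_mem_span_of_B (s a3) (by simp [h.Bue])), h.Qu, hz, s a1⟩
  obtain ⟨v, v1, v2⟩ := H.nd.exists_orth_eq_one (S := Submodule.span F {z, x}) (x := μ) fun e => by
    obtain ⟨a, b, rfl⟩ := Submodule.mem_span_pair.1 e
    exact h2 (by simp [orth_Q_add, orth_Q_smul, hz, h.Qu, s a1])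
  have v3 := s (v1 z (Submodule.subset_span (by simp)))
  have v4 := s (v1 x (Submodule.subset_span (by simp)))
  have b1 := sum_congr (s₁ := univ) rfl fun (t : F) _ =>
    H.coef h.Qu h.u_ne_zero (v := t • v) (by simp [v4]) w
  rw [sum_comm, sum_eq_single 0 (fun t _ ht => ?_) (by simp), sum_eq_zero fun ν _ => ?_] at b1
  · simp [Ev_zero, H.one, h0] at b1
  · simp only [B_smul_left, ← sum_mul, AddChar.sum_mulShift _ (AddChar.IsPrimitive.of_ne_one H.ψ1)]
    split_ifs with h3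
    swap
    · simp
    rw [show Pw R ψ x ν w = 0 from by_contra fun h4 => ?_]
    · simp
    obtain ⟨a, b, c, rfl⟩ := Submodule.mem_span_triple.1 (H.mem_of_Pw h.Qu
      (S := Submodule.span F {μ, z, x}) (Submodule.subset_span (by simp)) (fun u hu =>
        H.siegel_fix₁ hm hw h.Qu h.u_ne_zero (Submodule.subset_span (by simp))
          (Submodule.subset_span (by simp)) (Submodule.subset_span (by simp))
          (mem_orth_triple.2 ⟨a2, a1, h.Buu⟩)
          (by have := finrank_triple_le (F := F) μ z x; omega) hu) h4)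
    obtain rfl : a = 0 := by simpa [v3, v4, orth_symm f μ v, v2] using h3
    rw [zero_smul, zero_add] at h4
    by_cases hb : b = 0
    · rw [Pw_add, hb, zero_smul] at h4; exact h4 hc
    · exact h4 (hs _ _ (p.comb hb c) _ (H.Pw_mem h.Qu _ _))
  · have := H.Wt_map (H.E x (t • v)) hw
    rw [Ev_fix (s a1) (by simp [s v3]), Ev_orth h.Qu (by simp [v4]) (s a2)] at this
    rw [H.inner_Wt (fun e => ?_) hw this, mul_zero]
    rw [sub_sub_cancel, orth_B_smul_right, v2, mul_one, Submodule.smul_mem_iff _ ht] at e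
    exact p.symm.y0 e

open Classical in
theorem ns_cases (N : Num f k n) (h6 : 6 ≤ finrank F V) (hz : f.Q z = 0) (hz0 : z ≠ 0)
    (h1 : f.B μ z = 0) (h2 : f.Q μ ≠ 0) (hw : w ∈ Wt R ψ z μ) (h0 : w ≠ 0) {m : ℕ}
    (hm : m + (Fintype.card F - 1) * Fintype.card F ^ k = Nat.card {v // f.Q v = f.Q μ}) :
    m ≤ Fintype.card F * finrank ℂ W ∧ (9 ≤ finrank F V → 2 * m ≤ Fintype.card F * finrank ℂ W ∨
      m + n ≤ Fintype.card F * (finrank ℂ W + 1) ∨ ∃ x e, f.HypPair x e ∧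
        m + Fintype.card F * finrank ℂ (Wt R ψ x 0) ≤ Fintype.card F * finrank ℂ W ∧
        ∃ R' : (f.restrict (f.orth (Submodule.span F {x, e}))).Isom → End ℂ (Wt R ψ x 0),
          UR _ R' ψ ∧ ∃ g ∈ commutator _, R' g ≠ 1) := by
  have a1 : ∀ x, f.Q x = 0 → x ≠ 0 → ∀ b c : ℕ, (∀ y, Pr f x y → b ≤ finrank ℂ (Wt R ψ x y)) →
      m * finrank ℂ (Wt R ψ z μ) + (n - Fintype.card F) * b +
        Fintype.card F * finrank ℂ (Wt R ψ x 0) ≤ Fintype.card F * finrank ℂ W :=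
    fun x hx hx0 b c hb => by
      have := H.sum_le hx hx0 (m := fun v => (if f.B v x = 0 ∧ f.Q v = f.Q μ then
          finrank ℂ (Wt R ψ z μ) else 0) + (if Pr f x v then b else 0) +
          (if v ∈ univ.image (fun t : F => t • x) then finrank ℂ (Wt R ψ x 0) else 0)) fun v => by
        have q1 : v ∈ univ.image (fun t : F => t • x) ↔ v ∈ F ∙ x := by
          simp [Submodule.mem_span_singleton]
        by_cases h3 : v ∈ F ∙ x
        · rw [if_pos (q1.2 h3), if_neg fun h : Pr f x v => h.y0 h3, if_neg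
            fun h : _ ∧ f.Q v = f.Q μ => not_mem_span_of_Q hx (h.2 ▸ h2) h3]
          obtain ⟨t, rfl⟩ := Submodule.mem_span_singleton.1 h3
          rw [← Wt_add t, zero_add, zero_add, zero_add]
        rw [if_neg (mt q1.1 h3), add_zero]
        split_ifs with h4 h5 h5
        · exact absurd (h4.2.symm.trans h5.qy) h2
        · obtain ⟨g, hg, rfl, rfl⟩ := om_two H.nd h6 hz0 (not_mem_span_of_Q hz h2) hx0 h3
            (hz.trans hx.symm) h4.2.symm
            ((f.B_eq_zero_symm h1).trans (f.B_eq_zero_symm h4.1).symm)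
          rw [H.finrank_Wt_map hg, add_zero]
        · simpa using hb v h5
        · simp
      simp only [sum_add_distrib, ← sum_filter, sum_const, smul_eq_mul, filter_mem_eq_inter,
        univ_inter, card_image_of_injective _ (smul_left_injective F hx0), card_univ] at this
      rwa [add_right_cancel ((card_perp N.nd N.hk hx hx0 _).trans hm.symm),
        Nat.eq_sub_of_add_eq (H.card_pr N hx hx0)] at this
  have a2 := a1 z hz hz0 0 0 (by simp)
  have a3 := one_le hw h0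
  refine ⟨by nlinarith, fun h9 => ?_⟩
  refine a3.eq_or_lt.symm.imp (fun h => by nlinarith) fun h3 => ?_
  by_cases hs : ∀ x y, Pr f x y → ∀ w ∈ Wt R ψ x y, w = 0
  swap
  · push Not at hs
    obtain ⟨x, y, p, w', w1, w2⟩ := hs
    have := a1 x p.qx p.x0 1 0 fun y' p' => H.finrank_pr h6 p p' ▸ one_le w1 w2
    have := H.card_pr N p.qx p.x0
    left; rw [← h3] at *; rw [mul_add]; omega
  obtain ⟨x, x1, e, e1, h⟩ := exists_hyp_orth H.nd (Submodule.span F {z, μ})
    (by have := finrank_span_pair_le (F := F) z μ; omega)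
  rw [mem_orth_pair] at x1 e1
  obtain ⟨R', H', h4⟩ := H.restrict h (by omega)
  refine Or.inr ⟨x, e, h, by simpa [← h3] using a1 x h.Qu h.u_ne_zero 0 0 (by simp), R', H', ?_⟩
  have s := @B_eq_zero_symm _ _ _ _ _ _ f
  obtain ⟨v, v1, v2⟩ := H.nd.exists_orth_eq_one (S := Submodule.span F {z, x, e}) (x := μ) fun e => by
    obtain ⟨a, b, c, rfl⟩ := Submodule.mem_span_triple.1 e
    obtain rfl : b = 0 := by simpa [h.Beu, h.Bee, e1.1] using e1.2
    obtain rfl : c = 0 := by simpa [h.Bue, x1.1] using x1.2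
    exact h2 (by simp [orth_Q_smul, hz])
  obtain ⟨v3, v4, v5⟩ := mem_orth_triple.1 (mem_orth'.2 v1)
  obtain ⟨t, ht⟩ := AddChar.ne_one_iff.1 H.ψ1
  have := Fintype.ofFinite (f.orth (Submodule.span F {x, e}))
  refine ⟨_, H'.E ⟨z, mem_orth_pair.2 ⟨s x1.1, s e1.1⟩⟩ ⟨t • v, mem_orth_pair.2 (by simp [*])⟩,
    fun hc => ?_⟩
  have b1 := h4 ⟨z, mem_orth_pair.2 ⟨s x1.1, s e1.1⟩⟩ ⟨t • v, mem_orth_pair.2 (by simp [*])⟩
    ⟨_, H.Pw_mem h.Qu 0 w⟩
  rw [hc, End.one_apply, ← H.Pw_map (H.E _ _), map_zero, Ev_fix x1.1 (by simp [s v4]),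
    mem_Wt.1 hw _ (by simp [v3]), map_smul, B_smul_left, orth_symm, v2, mul_one] at b1
  exact ht (smul_left_injective ℂ (H.exists_Pw_zero h9 hz hz0 h1 h2 hw h0 h3.symm hs h x1.1 x1.2
    e1.1) (b1.symm.trans (one_smul _ _).symm))

end UR

variable (f) in
/-- quadratic spaces of minus type -/
structure MT (m : ℕ) : Prop where
  nd : f.Nondeg
  rk : finrank F V = 2 * m + 4
  c0 : (Nat.card {v // f.Q v = 0} : ℤ) = Fintype.card F ^ 3 * (Fintype.card F ^ m) ^ 2 -
    (Fintype.card F - 1) * Fintype.card F * Fintype.card F ^ m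
  c1 : ∀ c, c ≠ 0 → (Nat.card {v // f.Q v = c} : ℤ) =
    Fintype.card F ^ 3 * (Fintype.card F ^ m) ^ 2 + Fintype.card F * Fintype.card F ^ m
  ts : ∀ M, f.TotSing M → finrank F M ≤ m + 1

theorem MT.restrict {m : ℕ} (T : MT f (m + 1)) (h : f.HypPair x e) :
    MT (f.restrict (f.orth (Submodule.span F {x, e}))) m := by
  have h1 := fun c => card_perp T.nd (k := 2 * m + 4) T.rk h.Qu h.u_ne_zero c
  simp only [card_perp_restrict h] at h1
  zify [Fintype.card_pos] at h1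
  have q : (Fintype.card F : ℤ) ≠ 0 := Nat.cast_ne_zero.2 Fintype.card_ne_zero
  refine ⟨h.restrict_orth_nondeg T.nd, by have := h.finrank_orth T.nd; have := T.rk; omega,
    mul_left_cancel₀ q (by linear_combination h1 0 + T.c0),
    fun c hc => mul_left_cancel₀ q (by linear_combination h1 c + T.c1 c hc), fun M hM => ?_⟩
  have := T.ts (M.map (Submodule.subtype _) ⊔ F ∙ x) (totSing_of_Q fun a ha => by
    obtain ⟨_, ⟨a, ha', rfl⟩, _, hb, rfl⟩ := Submodule.mem_sup.1 ha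
    obtain ⟨t, rfl⟩ := Submodule.mem_span_singleton.1 hb
    simp [orth_Q_add, orth_Q_smul, h.Qu, (mem_orth_pair.1 a.2).1, show f.Q a = 0 from hM.1 a ha'])
  rw [Submodule.finrank_sup_span_singleton (by
    rintro ⟨a, -, e1⟩; simpa [show a.1 = x from e1, h.Bue] using (mem_orth_pair.1 a.2).2),
    Submodule.finrank_map_subtype_eq] at this
  omega

theorem minus_le (ψ : AddChar F ℂ) (m : ℕ) : ∀ {V : Type u} [AddCommGroup V] [Module F V] [Fintype V]
    {f : Form (Param.orth F) V} {W : Type v} [NormedAddCommGroup W] [InnerProductSpace ℂ W]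
    [FiniteDimensional ℂ W] {R : f.Isom → End ℂ W}, MT f (m + 2) → UR f R ψ →
    (∃ g ∈ commutator f.Isom, R g ≠ 1) →
    ((Fintype.card F : ℤ) ^ (m + 4) + 1) * (Fintype.card F ^ (m + 3) - Fintype.card F) ≤
      (Fintype.card F ^ 2 - 1) * finrank ℂ W := by
  induction m using Nat.strong_induction_on with
  | _ m ih =>
  intro V _ _ _ f W _ _ _ R T H h
  classical
  have hk := T.rk
  obtain ⟨y, -, e, -, he⟩ := exists_hyp_orth T.nd ⊥ (by simp; omega)
  have c1 := fun {z} hz hz0 c => card_perp T.nd (k := 2 * m + 6) T.rk (y := z) hz hz0 c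
  obtain ⟨n, N⟩ : ∃ n, Num f (2 * m + 6) n := ⟨_, T.nd, T.rk, (c1 he.Qu he.u_ne_zero 0).symm⟩
  have hn := N.hn
  zify [Fintype.card_pos] at hn
  rw [T.c0] at hn
  have q2 : (2 : ℤ) ≤ Fintype.card F := by exact_mod_cast Fintype.one_lt_card (α := F)
  obtain ⟨X, hX⟩ : ∃ X, X = (Fintype.card F : ℤ) ^ (m + 2) := ⟨_, rfl⟩
  have X1 : (Fintype.card F : ℤ) ^ 2 ≤ X := hX ▸ pow_le_pow_right₀ (by omega) (by omega)
  have X2 : (Fintype.card F : ℤ) ^ (2 * m + 6) = Fintype.card F ^ 2 * X ^ 2 := by rw [hX]; ring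
  rw [show (Fintype.card F : ℤ) ^ (m + 4) = Fintype.card F ^ 2 * X by rw [hX]; ring,
    show (Fintype.card F : ℤ) ^ (m + 3) = Fintype.card F * X by rw [hX]; ring]
  rw [← hX, X2] at hn
  have key : ∀ a : ℤ, Fintype.card F * a ≤ Fintype.card F * finrank ℂ W →
      (Fintype.card F ^ 2 * X + 1) * (Fintype.card F * X - Fintype.card F) ≤
        (Fintype.card F ^ 2 - 1) * a → (Fintype.card F ^ 2 * X + 1 : ℤ) *
          (Fintype.card F * X - Fintype.card F) ≤ (Fintype.card F ^ 2 - 1) * finrank ℂ W :=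
    fun a h1 h2 => h2.trans (mul_le_mul_of_nonneg_left (le_of_mul_le_mul_left h1 (by omega))
      (by nlinarith))
  obtain ⟨r, hr, q⟩ : ∃ r : ℤ, 0 ≤ r ∧ Fintype.card F = r + 2 := ⟨Fintype.card F - 2, by omega, by ring⟩
  obtain ⟨Y, hY, X3⟩ : ∃ Y : ℤ, 0 ≤ Y ∧ X = Y + Fintype.card F ^ 2 := ⟨X - Fintype.card F ^ 2,
    by omega, by ring⟩
  rcases H.main N (by omega) (Or.inr (by
    rcases m with _ | m
    exacts [Or.inr T.ts, Or.inl (by omega)])) h with ⟨z, μ, z1, z2, z3, z4, w, w1, w2⟩ | h | ⟨ζ, χ, A⟩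
  · obtain ⟨c, b3⟩ : ∃ c, c + _ = _ := ⟨_, c1 z1 z2 (f.Q μ)⟩
    obtain ⟨b1, b2⟩ := H.ns_cases N (by omega) z1 z2 z3 z4 w1 w2 b3
    zify [Fintype.card_pos] at b1 b3
    rw [T.c1 _ z4, ← hX, X2] at b3
    rcases m with _ | m
    · refine key (Fintype.card F * X ^ 2 + X) (by linarith) ?_
      rw [hX, q, ← sub_nonneg]; ring_nf; positivity
    rcases b2 (by omega) with b2 | b2 | ⟨x, e, h, b2, R', H', h'⟩ <;> zify at b2
    · refine key (2 * (Fintype.card F * X ^ 2 + X)) (by linarith) ?_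
      rw [X3, q, ← sub_nonneg]; ring_nf; positivity
    · refine key (2 * Fintype.card F * X ^ 2 - Fintype.card F * X + 2 * X - 1) (by linarith) ?_
      rw [X3, q, ← sub_nonneg]; ring_nf; positivity
    · have := Fintype.ofFinite (f.orth (Submodule.span F {x, e}))
      have b4 := ih m (by omega) (T.restrict h) H' h'
      rw [← hX, show (Fintype.card F : ℤ) ^ (m + 4) = Fintype.card F * X by rw [hX]; ring] at b4
      refine key (Fintype.card F * X ^ 2 + X + finrank ℂ (Wt R ψ x 0)) (by linarith) ?_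
      rw [mul_add (_ - _) _ (finrank ℂ _ : ℤ)]
      refine le_trans ?_ (add_le_add_right b4 _)
      rw [X3, q, ← sub_nonneg]; ring_nf; positivity
  · zify at h
    refine key (2 * (Fintype.card F * X ^ 2 - Fintype.card F * X + X - 1)) (by linarith) ?_
    rw [X3, q, ← sub_nonneg]; ring_nf; positivity
  · have := A.even N (M := -X) (Or.inr (by nlinarith)) (by rw [X2]; ring) (by linarith)
      fun c hc => by exact_mod_cast (T.c1 c hc).trans (T.c1 1 one_ne_zero).symm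
    have : ((Fintype.card F : ℤ) ^ 2 * -X - 1) * (Fintype.card F * -X + Fintype.card F) ≤
      (Fintype.card F ^ 2 - 1) * finrank ℂ W := by exact_mod_cast this
    linarith

omit [Fintype V] in
theorem transfer [Finite V] (hf : f.Nondeg) (h5 : 5 ≤ finrank F V) {G : Type*} [Group G]
    (i : G ≃* commutator f.Isom) {W₀ : Type} [AddCommGroup W₀] [Module ℂ W₀]
    [FiniteDimensional ℂ W₀] (ρ : Representation ℂ G W₀) (hρ : ρ.IsIrreducible)
    (h2 : 2 ≤ finrank ℂ W₀) {p : ℕ → Prop} (h : ∀ (W : Type) [NormedAddCommGroup W]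
      [InnerProductSpace ℂ W] [FiniteDimensional ℂ W] (R : f.Isom → End ℂ W) (ψ : AddChar F ℂ),
      UR f R ψ → (∃ g ∈ commutator f.Isom, R g ≠ 1) → p (finrank ℂ W)) : p (finrank ℂ W₀) := by
  classical
  have : Finite f.Isom := Finite.of_injective (fun g => (g.1 : V → V)) fun _ _ h =>
    Isom.ext (congrFun h)
  have : Finite G := Finite.of_equiv _ i.symm.toEquiv
  have := Fintype.ofFinite G
  let T := (finBasis ℂ W₀).equivFun.trans (WithLp.linearEquiv 2 ℂ _).symm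
  let c : InnerProductSpace.Core ℂ W₀ :=
    { inner := fun v w => ∑ g, ⟪T (ρ g v), T (ρ g w)⟫_ℂ
      conj_inner_symm := fun v w => by simp only [map_sum, inner_conj_symm]
      re_inner_nonneg := fun v => by
        rw [map_sum]; exact sum_nonneg fun _ _ => inner_self_nonneg
      add_left := fun u v w => by simp only [map_add, inner_add_left, sum_add_distrib]
      smul_left := fun v w r => by simp only [map_smul, inner_smul_left, mul_sum]
      definite := fun v hv => by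
        have h1 := congrArg Complex.re hv
        simp only [Complex.re_sum, re_self, Complex.zero_re] at h1
        simpa using (sum_eq_zero_iff_of_nonneg fun _ _ => sq_nonneg _).1 h1 1 (mem_univ _) }
  letI := c.toNormedAddCommGroup
  letI : InnerProductSpace ℂ W₀ := InnerProductSpace.ofCore c.toCore
  obtain ⟨ψ, hψ⟩ := AddChar.exists_apply_ne_zero.2 (one_ne_zero (α := F))
  refine h W₀ (fun g => if hg : g ∈ commutator _ then ρ (i.symm ⟨g, hg⟩) else 1) ψ
    ⟨hf, h5, by rintro rfl; simp at hψ, ?_, fun ha hb => ?_, fun {g} hg v w => ?_⟩ ?_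
  · rw [dif_pos (one_mem _)]; exact (congrArg ρ (map_one i.symm)).trans (map_one ρ)
  · rw [dif_pos ha, dif_pos hb, dif_pos (mul_mem ha hb), ← map_mul, ← map_mul]; rfl
  · rw [dif_pos hg]
    exact Fintype.sum_equiv (Equiv.mulRight (i.symm ⟨g, hg⟩)) _ _ fun k => by simp
  · by_contra hc
    push Not at hc
    have h1 : ∀ a, ρ a = 1 := fun a => by simpa using hc (i a) (i a).2
    have := finrank_le_one_of_comm ρ hρ (by simp [h1])
    omega

end Cfsg.Agent.OD
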