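import Cfsg.Agent.Lib.OD.Gen
import Cfsg.Agent.Lib.Deg.SLMin2

/-!
Unitary representations of `Ω`: weight spaces of the groups of Siegel transformations.
-/

set_option autoImplicit false

namespace Cfsg.Agent.OD

open Module Cfsg.Agent.Forms Cfsg.Agent.Forms.Form Cfsg.Agent.MI Cfsg.Agent.Deg
open scoped InnerProductSpace ComplexConjugate

variable {F : Type*} [Field F] {V : Type*} [AddCommGroup V] [Module F V]
  {f : Form (Param.orth F) V} {W : Type*} [NormedAddCommGroup W] [InnerProductSpace ℂ W]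
  {R : f.Isom → End ℂ W} {ψ : AddChar F ℂ} {x y z v μ μ' : V} {w w' : W} {g k : f.Isom}

variable (f R ψ) in
/-- a unitary representation of `Ω` -/
structure UR : Prop where
  nd : f.Nondeg
  h5 : 5 ≤ finrank F V
  ψ1 : ψ ≠ 1
  one : R 1 = 1
  mul : ∀ {g h}, g ∈ commutator f.Isom → h ∈ commutator f.Isom → R (g * h) = R g * R h
  inner : ∀ {g}, g ∈ commutator f.Isom → ∀ v w, ⟪R g v, R g w⟫_ℂ = ⟪v, w⟫_ℂ

variable (f ψ) in
/-- the characters of the group of Siegel transformations with a given centre -/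
noncomputable def ch (x μ : V) : AddChar (f.orth (F ∙ x)) ℂ :=
  ψ.compAddMonoidHom (f.B.flip μ ∘ₗ (f.orth (F ∙ x)).subtype).toAddMonoidHom

theorem ch_apply (v : f.orth (F ∙ x)) : ch f ψ x μ v = ψ (f.B v μ) := rfl

variable (R ψ) in
/-- weight spaces -/
noncomputable def Wt (x μ : V) : Submodule ℂ W :=
  wtSp (fun v : f.orth (F ∙ x) => R (Ev f x v)) (ch f ψ x μ)

theorem mem_Wt : w ∈ Wt R ψ x μ ↔ ∀ v, f.B v x = 0 → R (Ev f x v) w = ψ (f.B v μ) • w :=
  ⟨fun h v h0 => h ⟨v, mem_orth_singleton.2 h0⟩, fun h v => h v (mem_orth_singleton.1 v.2)⟩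

theorem ch_add (c : F) : ch f ψ x (μ + c • x) = ch f ψ x μ :=
  AddChar.ext _ _ fun v => by simp [ch_apply, mem_orth_singleton.1 v.2]

theorem Wt_add (c : F) : Wt R ψ x (μ + c • x) = Wt R ψ x μ := by rw [Wt, ch_add, Wt]

theorem Wt_smul (hx : f.Q x = 0) {s : F} (hs : s ≠ 0) :
    Wt R ψ (s • x) (s • μ) = Wt R ψ x μ := by
  ext w
  simp only [mem_Wt, orth_B_smul_right, mul_eq_zero, hs, false_or]
  refine ⟨fun h v hv => ?_, fun h v hv => ?_⟩
  · have := h (s⁻¹ • v) (by simp [hv])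
    rwa [Ev_smul_left hx (by simp [hv]), smul_inv_smul₀ hs, B_smul_left, mul_inv_cancel_left₀ hs]
      at this
  · rw [Ev_smul_left hx hv, h _ (by simp [hv]), B_smul_left]

theorem exists_psi_ne (hψ : ψ ≠ 1) {a : F} (ha : a ≠ 0) : ∃ t, ψ (t * a) ≠ 1 := by
  obtain ⟨s, hs⟩ := AddChar.ne_one_iff.1 hψ
  exact ⟨s / a, by rwa [div_mul_cancel₀ _ ha]⟩

namespace UR

variable (H : UR f R ψ)
include H

theorem app (hg : g ∈ commutator f.Isom) (hk : k ∈ commutator f.Isom) (w : W) :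
    R (g * k) w = R g (R k w) := by rw [H.mul hg hk, End.mul_apply]

theorem inv_app (hg : g ∈ commutator f.Isom) (w : W) : R g⁻¹ (R g w) = w := by
  rw [← H.app (inv_mem hg) hg, inv_mul_cancel, H.one, End.one_apply]

theorem app_inv (hg : g ∈ commutator f.Isom) (w : W) : R g (R g⁻¹ w) = w := by
  simpa using H.inv_app (inv_mem hg) w

theorem ne_zero (hg : g ∈ commutator f.Isom) (h : w ≠ 0) : R g w ≠ 0 := fun e =>
  h (by rw [← H.inv_app hg w, e, map_zero])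

theorem inner_left (hg : g ∈ commutator f.Isom) (v w : W) : ⟪R g v, w⟫_ℂ = ⟪v, R g⁻¹ w⟫_ℂ := by
  rw [← H.inner hg v, H.app_inv hg]

theorem norm (hg : g ∈ commutator f.Isom) (w : W) : ‖R g w‖ = ‖w‖ := by
  rw [@norm_eq_sqrt_re_inner ℂ, H.inner hg, ← @norm_eq_sqrt_re_inner ℂ]

/-- the stabiliser of a vector -/
def stab (w : W) : Subgroup f.Isom where
  carrier := {g | g ∈ commutator f.Isom ∧ R g w = w}
  one_mem' := ⟨one_mem _, by rw [H.one, End.one_apply]⟩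
  mul_mem' ha hb := ⟨mul_mem ha.1 hb.1, by rw [H.app ha.1 hb.1, hb.2, ha.2]⟩
  inv_mem' ha := ⟨inv_mem ha.1, by nth_rw 1 [← ha.2]; rw [H.inv_app ha.1]⟩

theorem Wt_eq_zero (hx : f.Q x = 0) (h : f.B μ x ≠ 0) (hw : w ∈ Wt R ψ x μ) : w = 0 := by
  obtain ⟨t, ht⟩ := exists_psi_ne H.ψ1 h
  have := mem_Wt.1 hw (t • x) (by simp [f.B_self_of_Q hx])
  rw [Ev_smul_self, H.one, B_smul_left, orth_symm, End.one_apply, eq_comm, ← sub_eq_zero] at this
  exact (smul_eq_zero_iff_right (sub_ne_zero.2 ht)).1 (by rwa [sub_smul, one_smul])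

variable [Fintype F] [Fintype V]

theorem E (x v : V) : Ev f x v ∈ commutator f.Isom := Ev_mem H.nd H.h5 x v

theorem cj (hg : g ∈ commutator f.Isom) (x v : V) (w : W) :
    R (Ev f (g.1 x) (g.1 v)) (R g w) = R g (R (Ev f x v) w) := by
  rw [← H.app (H.E _ _) hg, ← Ev_conj, inv_mul_cancel_right, H.app hg (H.E _ _)]

theorem Wt_map (hg : g ∈ commutator f.Isom) (hw : w ∈ Wt R ψ x μ) :
    R g w ∈ Wt R ψ (g.1 x) (g.1 μ) := mem_Wt.2 fun v hv => by
  rw [← Isom.apply_inv g v, H.cj hg, mem_Wt.1 hw _ (by rwa [← Isom.B_right]), map_smul,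
    Isom.map_B]

theorem finrank_Wt_map [FiniteDimensional ℂ W] (hg : g ∈ commutator f.Isom) (x μ : V) :
    finrank ℂ (Wt R ψ (g.1 x) (g.1 μ)) = finrank ℂ (Wt R ψ x μ) := by
  have key : ∀ {g}, g ∈ commutator f.Isom → ∀ x μ,
      finrank ℂ (Wt R ψ x μ) ≤ finrank ℂ (Wt R ψ (g.1 x) (g.1 μ)) := fun {g} hg x y =>
    LinearMap.finrank_le_finrank_of_injective (f := (R g).restrict fun _ => H.Wt_map hg)
      ((injective_iff_map_eq_zero _).mpr fun w hw => Subtype.ext (by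
        by_contra h; exact H.ne_zero hg h (congrArg Subtype.val hw)))
  refine le_antisymm ?_ (key hg x μ)
  have := key (inv_mem hg) (g.1 x) (g.1 μ)
  rwa [Isom.inv_apply, Isom.inv_apply] at this

theorem exists_psi_sub (h : μ - μ' ∉ F ∙ x) :
    ∃ v, f.B v x = 0 ∧ ψ (f.B v μ) ≠ ψ (f.B v μ') := by
  obtain ⟨v, h1, h2⟩ := H.nd.exists_orth_eq_one h
  obtain ⟨t, ht⟩ := AddChar.ne_one_iff.1 H.ψ1
  refine ⟨t • v, by simp [f.B_eq_zero_symm (h1 x (Submodule.mem_span_singleton_self x))],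
    fun e => ht ?_⟩
  rw [← mul_one t, ← h2, orth_symm, ← B_smul_left, B_sub_right, AddChar.map_sub_eq_div, e,
    div_self]
  exact fun h0 => by have := AddChar.norm_apply ψ (f.B (t • v) μ'); rw [h0] at this; simp at this

theorem inner_Wt (h : μ - μ' ∉ F ∙ x) (hw : w ∈ Wt R ψ x μ) (hw' : w' ∈ Wt R ψ x μ') :
    ⟪w, w'⟫_ℂ = 0 := by
  obtain ⟨v, h1, h2⟩ := H.exists_psi_sub h
  have := H.inner (H.E x v) w w'
  rw [mem_Wt.1 hw v h1, mem_Wt.1 hw' v h1, inner_smul_left, inner_smul_right, ← mul_assoc,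
    ← AddChar.map_neg_eq_conj, ← AddChar.map_add_eq_mul, neg_add_eq_sub, AddChar.map_sub_eq_div]
    at this
  refine (mul_left_eq_self₀.1 this).resolve_left fun e => h2 (eq_of_div_eq_one e).symm

end UR

variable [Fintype F] [Fintype V]

noncomputable instance instFintypeOrth (S : Submodule F V) : Fintype (f.orth S) :=
  Fintype.ofFinite _

variable (R ψ) in
/-- projections on the weight spaces -/
noncomputable def Pw (x μ : V) : End ℂ W :=
  prj (fun v : f.orth (F ∙ x) => R (Ev f x v)) (ch f ψ x μ)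

theorem Pw_of_mem (hw : w ∈ Wt R ψ x μ) : Pw R ψ x μ w = w := prj_of_wt hw

theorem Pw_add (c : F) : Pw R ψ x (μ + c • x) = Pw R ψ x μ := by rw [Pw, ch_add, Pw]

theorem sum_psi_B (hf : f.Nondeg) (hψ : ψ ≠ 1) (hv : v ≠ 0) : ∑ μ, ψ (f.B v μ) = 0 := by
  refine AddChar.sum_eq_zero_iff_ne_zero
    (ψ := ψ.compAddMonoidHom (f.B v).toAddMonoidHom) |>.mpr fun h => ?_
  obtain ⟨w, hw⟩ := hf.exists_ne_zero hv
  obtain ⟨t, ht⟩ := exists_psi_ne hψ hw
  exact ht (by simpa using DFunLike.congr_fun h (t • w))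

theorem card_orth_mul (hf : f.Nondeg) (hx : x ≠ 0) :
    Fintype.card (f.orth (F ∙ x)) * Fintype.card F = Fintype.card V := by
  rw [card_eq_pow_finrank (K := F), card_eq_pow_finrank (K := F) (V := V),
    ← hf.finrank_orth_singleton hx, pow_succ]

namespace UR

variable (H : UR f R ψ)
include H

theorem hadd (hx : f.Q x = 0) (a b : f.orth (F ∙ x)) :
    R (Ev f x (a + b : f.orth (F ∙ x))) = R (Ev f x a) * R (Ev f x b) := by
  rw [← H.mul (H.E _ _) (H.E _ _), ← Ev_add hx (mem_orth_singleton.1 a.2)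
    (mem_orth_singleton.1 b.2), Submodule.coe_add]

theorem Pw_mem (hx : f.Q x = 0) (μ : V) (w : W) : Pw R ψ x μ w ∈ Wt R ψ x μ :=
  prj_mem_wt (H.hadd hx) _ _

theorem Pw_map (hg : g ∈ commutator f.Isom) (x μ : V) (w : W) :
    Pw R ψ (g.1 x) (g.1 μ) (R g w) = R g (Pw R ψ x μ w) := by
  let e : f.orth (F ∙ x) ≃ f.orth (F ∙ g.1 x) :=
    ⟨fun v => ⟨g.1 v, mem_orth_singleton.2 (by
      rw [Isom.map_B]; exact mem_orth_singleton.1 v.2)⟩,
    fun v => ⟨g⁻¹.1 v, mem_orth_singleton.2 (by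
      rw [← Isom.B_right]; exact mem_orth_singleton.1 v.2)⟩,
    fun v => Subtype.ext (Isom.inv_apply _ _), fun v => Subtype.ext (Isom.apply_inv _ _)⟩
  exact prj_conj e (fun _ => LinearMap.ext (H.cj hg _ _))
    (fun v => by simp [e, ch_apply, Isom.map_B]) w

theorem inner_Pw (hx : f.Q x = 0) (hw : w ∈ Wt R ψ x μ) (w' : W) :
    ⟪w, Pw R ψ x μ w'⟫_ℂ = ⟪w, w'⟫_ℂ := by
  have : ∀ v : f.orth (F ∙ x), ⟪w, ch f ψ x μ (-v) • R (Ev f x v) w'⟫_ℂ = ⟪w, w'⟫_ℂ := fun v => by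
    rw [inner_smul_right, ← inv_inv (Ev f x v), ← H.inner_left (inv_mem (H.E _ _)),
      Ev_inv hx (mem_orth_singleton.1 v.2), show R (Ev f x (-v)) w = _ from hw (-v),
      inner_smul_left, ← mul_assoc, Complex.mul_conj', AddChar.norm_apply]
    simp
  rw [Pw, prj_apply, inner_smul_right, inner_sum]
  simp [this]

theorem sum_Pw (hx0 : x ≠ 0) (w : W) : ∑ μ, Pw R ψ x μ w = (Fintype.card F : ℂ) • w := by
  simp only [Pw, prj_apply, ← Finset.smul_sum]
  rw [Finset.sum_comm, Finset.sum_eq_single 0]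
  · simp only [neg_zero, AddChar.map_zero_eq_one, one_smul, ZeroMemClass.coe_zero, Ev_zero, H.one,
      End.one_apply, Finset.sum_const, Finset.card_univ, ← card_orth_mul H.nd hx0,
      ← Nat.cast_smul_eq_nsmul ℂ, smul_smul]
    rw [Nat.cast_mul, inv_mul_cancel_left₀ (Nat.cast_ne_zero.mpr Fintype.card_ne_zero)]
  · intro φ _ hφ
    simp only [ch_apply, ← Finset.sum_smul]
    rw [sum_psi_B H.nd H.ψ1 (by simpa using hφ), zero_smul]
  · simp

theorem exists_Pw (hx0 : x ≠ 0) (h : w ≠ 0) : ∃ μ, Pw R ψ x μ w ≠ 0 := by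
  by_contra hc
  push Not at hc
  have := H.sum_Pw hx0 w
  simp only [hc, Finset.sum_const_zero] at this
  exact smul_ne_zero (Nat.cast_ne_zero.2 Fintype.card_ne_zero) h this.symm

theorem coef (hx : f.Q x = 0) (hx0 : x ≠ 0) (hv : f.B v x = 0) (w : W) :
    Fintype.card F * ⟪w, R (Ev f x v) w⟫_ℂ = ∑ μ, ψ (f.B v μ) * ‖Pw R ψ x μ w‖ ^ 2 := by
  rw [← inner_smul_right, ← map_smul, ← H.sum_Pw hx0, map_sum, inner_sum]
  refine Finset.sum_congr rfl fun μ _ => ?_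
  rw [mem_Wt.1 (H.Pw_mem hx μ w) v hv, inner_smul_right, ← inner_conj_symm,
    ← H.inner_Pw hx (H.Pw_mem hx μ w), inner_conj_symm, inner_self_eq_norm_sq_to_K]
  rfl

theorem sum_finrank [FiniteDimensional ℂ W] (hx : f.Q x = 0) (hx0 : x ≠ 0) :
    ∑ μ, finrank ℂ (Wt R ψ x μ) = Fintype.card F * finrank ℂ W := by
  have h := congrArg (LinearMap.trace ℂ W) (show ∑ μ, Pw R ψ x μ = (Fintype.card F : ℂ) • 1 from
    LinearMap.ext fun w => by simpa using H.sum_Pw hx0 w)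
  have h2 := fun μ => finrank_wtSp (a := fun v : f.orth (F ∙ x) => R (Ev f x v)) (H.hadd hx)
    (ch f ψ x μ) 0
  simp only [ZeroMemClass.coe_zero, Ev_zero, H.one, one_mul, AddChar.map_zero_eq_one] at h2
  simp only [map_sum, Pw, h2, map_smul, LinearMap.trace_one, smul_eq_mul] at h
  exact_mod_cast h

/-- an eigenvector of a Siegel transformation sees the eigenvalue on its weights -/
theorem eig_of_Pw (hx : f.Q x = 0) (hv : f.B v x = 0) {c : ℂ} (h : R (Ev f x v) w = c • w)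
    (h0 : Pw R ψ x μ w ≠ 0) : ψ (f.B v μ) = c := by
  have h1 := H.Pw_map (H.E x v) x μ w
  by_cases hμ : f.B μ x = 0
  · rw [Ev_self, Ev_orth hx hv hμ, sub_eq_add_neg, ← neg_smul, Pw_add, h, map_smul,
      mem_Wt.1 (H.Pw_mem hx μ w) v hv] at h1
    exact (smul_left_injective ℂ h0 h1).symm
  · exact absurd (H.Wt_eq_zero hx hμ (H.Pw_mem hx μ w)) h0

theorem mem_of_Pw (hx : f.Q x = 0) {S : Submodule F V} (hS : x ∈ S)
    (h : ∀ v ∈ f.orth S, R (Ev f x v) w = w) (h0 : Pw R ψ x μ w ≠ 0) : μ ∈ S := by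
  rw [← H.nd.orth_orth S, mem_orth']
  intro v hv
  by_contra hc
  obtain ⟨t, ht⟩ := exists_psi_ne H.ψ1 hc
  exact ht (by
    rw [← B_smul_left]
    exact H.eig_of_Pw hx (by simp [hv x hS])
      (by rw [one_smul]; exact h _ (Submodule.smul_mem _ _ hv)) h0)

theorem comm_fix (hg : g ∈ commutator f.Isom) (hk : k ∈ commutator f.Isom)
    (h1 : ∃ c : ℂ, R g w = c • w) (h2 : ∃ c : ℂ, R k w = c • w) :
    R (g * k * g⁻¹ * k⁻¹) w = w :=
  Deg.comm_fix (G := commutator f.Isom) (ρ := ⟨⟨fun g => R g, H.one⟩, fun a b => H.mul a.2 b.2⟩)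
    (g := ⟨g, hg⟩) (t := ⟨k, hk⟩) h1 h2

variable [FiniteDimensional ℂ W]

theorem scal (hm : finrank ℂ (Wt R ψ x y) = 1) (hw : w ∈ Wt R ψ x y) (h0 : w ≠ 0)
    (hw' : w' ∈ Wt R ψ x y) : ∃ c : ℂ, w' = c • w := by
  obtain ⟨c, hc⟩ := (finrank_eq_one_iff_of_nonzero' (⟨w, hw⟩ : Wt R ψ x y) (by simpa)).mp hm
    ⟨w', hw'⟩
  exact ⟨c, (congrArg Subtype.val hc).symm⟩

theorem eig (hm : finrank ℂ (Wt R ψ x y) = 1) (hw : w ∈ Wt R ψ x y)
    (hg : g ∈ commutator f.Isom) (h1 : g.1 x = x) (h2 : g.1 y = y) : ∃ c : ℂ, R g w = c • w := by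
  by_cases h0 : w = 0
  · exact ⟨0, by simp [h0]⟩
  · exact H.scal hm hw h0 (by simpa only [h1, h2] using H.Wt_map hg hw)

theorem fix_sub (hm : finrank ℂ (Wt R ψ x y) = 1) (hw : w ∈ Wt R ψ x y) (hz : f.Q z = 0)
    (h1 : f.B x z = 0) (h2 : f.B y z = 0) (h3 : f.B x v = 0) (h4 : f.B y v = 0) (h5 : f.B v z = 0)
    (hg : g ∈ commutator f.Isom) (g1 : g.1 x = x) (g2 : g.1 y = y) {a : F} (ha : a ≠ 0)
    (g3 : g.1 z = a • z) : R (Ev f z (a • g.1 v - v)) w = w := by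
  have h6 : f.B (g.1 v) z = 0 := by
    have := Isom.map_B g v z
    rw [g3, orth_B_smul_right, h5] at this
    exact (mul_eq_zero.1 this).resolve_left ha
  have := H.comm_fix hg (H.E z v) (H.eig hm hw hg g1 g2)
    (H.eig hm hw (H.E _ _) (Ev_fix h1 h3) (Ev_fix h2 h4))
  rwa [Ev_conj, g3, Ev_smul_left hz h6, Ev_inv hz h5, ← Ev_add hz (by simp [h6]) (by simp [h5]),
    ← sub_eq_add_neg] at this

theorem siegel_fix₁ (hm : finrank ℂ (Wt R ψ x y) = 1) (hw : w ∈ Wt R ψ x y) (hz : f.Q z = 0)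
    (hz0 : z ≠ 0) {S : Submodule F V} (hx : x ∈ S) (hy : y ∈ S) (hzS : z ∈ S)
    (hzo : z ∈ f.orth S) (hd : 2 * finrank F S + 3 ≤ finrank F V) (hv : v ∈ f.orth S) :
    R (Ev f z v) w = w := by
  by_cases h0 : w = 0
  · simp [h0]
  obtain ⟨μ, hμ⟩ := H.exists_Pw hz0 h0
  have o := @mem_orth' _ _ _ _ _ _ f S
  suffices h : μ ∈ S by
    obtain ⟨c, hc⟩ := H.eig hm hw (H.E z v) (Ev_fix (o.1 hzo x hx) (o.1 hv x hx))
      (Ev_fix (o.1 hzo y hy) (o.1 hv y hy))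
    rw [hc, ← H.eig_of_Pw hz (hv z hzS) hc hμ, hv μ h, AddChar.map_zero_eq_one, one_smul]
  by_contra hc
  obtain ⟨z', z1, z2, z3⟩ := exists_sing_perp H.nd hd hc
  obtain ⟨a, ha, b, hb, hab⟩ := exists_B_ne_perp H.nd (S ⊔ F ∙ z') (by
    have := Submodule.finrank_add_le_finrank_add_finrank S (F ∙ z')
    have := finrank_span_singleton (K := F) (show z' ≠ 0 by rintro rfl; simp at z3)
    omega)
  rw [orth_sup] at ha hb
  obtain ⟨t, ht⟩ := exists_psi_ne H.ψ1 (neg_ne_zero.2 (mul_ne_zero hab z3))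
  have b1 := mem_orth_singleton.1 hb.2
  have a1 := mem_orth_singleton.1 ha.2
  have := H.fix_sub (v := t • a) hm hw hz (o.1 hzo x hx) (o.1 hzo y hy) (by simp [o.1 ha.1 x hx])
    (by simp [o.1 ha.1 y hy]) (by simp [ha.1 z hzS]) (H.E z' b)
    (Ev_fix (o.1 z1 x hx) (o.1 hb.1 x hx)) (Ev_fix (o.1 z1 y hy) (o.1 hb.1 y hy)) one_ne_zero
    ((Ev_fix (o.1 z1 z hzS) (o.1 hb.1 z hzS)).trans (one_smul _ _).symm)
  rw [Ev_orth z2 b1 (by simp [a1]), one_smul, sub_sub_cancel_left] at this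
  refine ht (Eq.trans ?_ (H.eig_of_Pw hz (by simp [z1 z hzS]) (this.trans (one_smul _ _).symm) hμ))
  simp [orth_symm _ μ z', mul_assoc]

theorem siegel_fix (h7 : 7 ≤ finrank F V)
    (hq : 4 ≤ Nat.card F ∨ 9 ≤ finrank F V ∨ ∀ M, f.TotSing M → finrank F M ≤ 3)
    (hn : ∀ z μ, f.Q z = 0 → f.Q μ ≠ 0 → ∀ w ∈ Wt R ψ z μ, w = 0) (hx : f.Q x = 0)
    (hy : f.Q y = 0) (hxy : f.B y x = 0) (hm : finrank ℂ (Wt R ψ x y) = 1) (hw : w ∈ Wt R ψ x y)
    (hx0 : x ≠ 0) (hy0 : y ∉ F ∙ x) (hz : f.Q z = 0) (h1 : f.B v z = 0)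
    (h2 : z ∈ f.orth (Submodule.span F {x, y})) (h3 : v ∈ f.orth (Submodule.span F {x, y})) :
    R (Ev f z v) w = w := by
  have key : ∀ z ∈ Submodule.span F {x, y}, ∀ v ∈ f.orth (Submodule.span F {x, y}),
      R (Ev f z v) w = w := fun z hz v hv => by
    by_cases h0 : z = 0
    · rw [h0, ← zero_smul F x, Ev_smul_left hx (mem_orth_pair.1 hv).1, zero_smul, Ev_zero, H.one,
        End.one_apply]
    obtain ⟨a, b, rfl⟩ := Submodule.mem_span_pair.1 hz
    have := f.B_eq_zero_symm hxy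
    exact H.siegel_fix₁ hm hw (by simp [orth_Q_add, orth_Q_smul, *]) h0
      (Submodule.subset_span (by simp)) (Submodule.subset_span (by simp)) hz
      (mem_orth_pair.2 (by simp [f.B_self_of_Q, *]))
      (by have := finrank_span_pair_le (F := F) x y; omega) hv
  by_cases h4 : z ∈ Submodule.span F {x, y}
  · exact key z h4 v h3
  obtain ⟨z1, z2⟩ := mem_orth_pair.1 h2
  obtain ⟨v1, v2⟩ := mem_orth_pair.1 h3
  have z0 : z ≠ 0 := by rintro rfl; exact h4 (zero_mem _)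
  have s := @B_eq_zero_symm _ _ _ _ _ _ f
  rcases hq with hq | hq | hq
  · obtain ⟨b, hb, hb1⟩ := exists_sq_ne_one hq
    obtain ⟨e, he, h5⟩ := H.nd.exists_hypPair_orth hz h4 (mem_orth'.1 h2)
    have h6 := sub_ne_zero.2 hb1
    have := H.fix_sub (v := (b * b - 1)⁻¹ • v) hm hw hz (s z1) (s z2) (by simp [s v1])
      (by simp [s v2]) (by simp [h1]) (hscale_sq_mem H.nd H.h5 he hb)
      (he.hscale_of_orth _ _ (s z1) (h5 _ (Submodule.subset_span (by simp))))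
      (he.hscale_of_orth _ _ (s z2) (h5 _ (Submodule.subset_span (by simp))))
      (mul_ne_zero hb hb) (he.hscale_u _ _)
    rwa [he.hscale_apply, show _ - _ = v + (b * b * f.B v e) • z by
      have := mul_inv_cancel₀ h6
      simp only [B_smul_left, h1]; match_scalars
      exacts [by linear_combination this, by linear_combination (b * b * f.B v e) * this, by simp],
      Ev_add_smul hz h1] at this
  · exact H.siegel_fix₁ (S := Submodule.span F {x, y, z}) hm hw hz z0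
      (Submodule.subset_span (by simp)) (Submodule.subset_span (by simp))
      (Submodule.subset_span (by simp)) (mem_orth_triple.2 ⟨z1, z2, f.B_self_of_Q hz⟩)
      (by have := finrank_triple_le (F := F) x y z; omega) (mem_orth_triple.2 ⟨v1, v2, h1⟩)
  by_cases h0 : w = 0
  · simp [h0]
  obtain ⟨μ, hμ⟩ := H.exists_Pw z0 h0
  have m1 : f.Q μ = 0 := by_contra fun h => hμ (hn z μ hz h _ (H.Pw_mem hz μ w))
  have m2 : f.B μ z = 0 := by_contra fun h => hμ (H.Wt_eq_zero hz h (H.Pw_mem hz μ w))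
  have m3 : ∀ a ∈ Submodule.span F {x, y}, f.Q a = 0 → f.B a μ = 0 := fun a ha h => by
    by_contra hc
    obtain ⟨t, ht⟩ := exists_psi_ne H.ψ1 hc
    have h5 : f.B (t • a) z = 0 := by simp [s (h2 a ha)]
    refine ht (B_smul_left f t a μ ▸ H.eig_of_Pw hz h5 ?_ hμ)
    rw [Ev_swap hz (by rw [orth_Q_smul, h, mul_zero]) h5, one_smul]
    exact key _ (Submodule.smul_mem _ _ ha) _ (neg_mem h2)
  have m4 := m3 x (Submodule.subset_span (by simp)) hx
  have m5 := m3 y (Submodule.subset_span (by simp)) hy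
  have m6 : μ ∈ Submodule.span F (Set.range ![z, x, y]) := by
    by_contra hc
    have li := (linearIndependent_finCons (x := μ)).2 ⟨li_triple hx0 hy0 h4, hc⟩
    have := hq (Submodule.span F (Set.range (Fin.cons μ ![z, x, y] : Fin 4 → V)))
      (totSing_of_Q fun a ha => by
        obtain ⟨c, rfl⟩ := (Submodule.mem_span_range_iff_exists_fun F).1 ha
        simp [Fin.sum_univ_succ, orth_Q_add, orth_Q_smul, s m4, s m5, s hxy, *])
    rw [finrank_span_eq_card li] at this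
    simp at this
  obtain ⟨c, hc⟩ := H.eig hm hw (H.E z v) (Ev_fix (s z1) (s v1)) (Ev_fix (s z2) (s v2))
  obtain ⟨c', rfl⟩ := (Submodule.mem_span_range_iff_exists_fun F).1 m6
  rw [hc, ← H.eig_of_Pw hz h1 hc hμ]
  simp [Fin.sum_univ_succ, *]

theorem fix_of_one (h7 : 7 ≤ finrank F V)
    (hq : 4 ≤ Nat.card F ∨ 9 ≤ finrank F V ∨ ∀ M, f.TotSing M → finrank F M ≤ 3)
    (hn : ∀ z μ, f.Q z = 0 → f.Q μ ≠ 0 → ∀ w ∈ Wt R ψ z μ, w = 0) (hx : f.Q x = 0)
    (hy : f.Q y = 0) (hxy : f.B y x = 0) (hm : finrank ℂ (Wt R ψ x y) = 1) (hw : w ∈ Wt R ψ x y)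
    (hx0 : x ≠ 0) (hy0 : y ∉ F ∙ x) (hg : g ∈ commutator f.Isom) (g1 : g.1 x = x)
    (g2 : g.1 y = y) : R g w = w := by
  have d := finrank_span_pair_le (F := F) x y
  obtain ⟨u, hu, e, he, h⟩ := exists_hyp_orth H.nd (Submodule.span F {x, y}) (by omega)
  obtain ⟨w₀, w1, w2⟩ := (h.restrict_orth_nondeg H.nd).exists_nonsingular_orth
    ((Submodule.span F {x, y}).comap (Submodule.subtype _)) (by
      have := h.finrank_orth H.nd
      have := finrank_comap_le (Submodule.span F {x, y}) (f.orth (Submodule.span F {u, e})); omega)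
  exact (fix_mem H.nd H.h5 (K := H.stab w) (totSing_of_Q fun a ha => by
      obtain ⟨s, t, rfl⟩ := Submodule.mem_span_pair.1 ha
      simp [orth_Q_add, orth_Q_smul, hx, hy, f.B_eq_zero_symm hxy]) h hu he
    (orth_of_restrict (fun a ha => mem_orth_pair.2 ⟨mem_orth'.1 hu a ha, mem_orth'.1 he a ha⟩) w1)
    (mem_orth_pair.1 w₀.2).1 (mem_orth_pair.1 w₀.2).2 w2
    (fun z v a b c d => ⟨H.E _ _, H.siegel_fix h7 hq hn hx hy hxy hm hw hx0 hy0 a b c d⟩) hg
    fun a ha => by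
      obtain ⟨s, t, rfl⟩ := Submodule.mem_span_pair.1 ha
      simp [g1, g2]).2

end UR

end Cfsg.Agent.OD
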